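import Cfsg.Agent.H6.HNR.Fis9

/-! Involutions with a unique fixed coset: a counting argument. -/

set_option autoImplicit false

namespace Cfsg.H6

open MulAction

variable {Y : Type*} [Group Y]

theorem exists_fix_of_invol {Ω : Type*} [Finite Ω] {S : Set Ω} {f g : Ω → Ω} (hf : ∀ x ∈ S, f x ∈ S)
    (hg : ∀ x ∈ S, g x ∈ S) (f2 : ∀ x, f (f x) = x) (g2 : ∀ x, g (g x) = x) {a : Ω} (ha : a ∈ S)
    (h1 : f a = a) (h2 : ∀ x, f x = x → x = a) : ∃ x ∈ S, g x = x := by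
  classical
  have : Fact (Nat.Prime 2) := ⟨Nat.prime_two⟩
  have := Fintype.ofFinite S
  let σ : Equiv.Perm S := Function.Involutive.toPerm (fun x => ⟨f x, hf x x.2⟩) fun x => Subtype.ext (f2 x)
  let ρ : Equiv.Perm S := Function.Involutive.toPerm (fun x => ⟨g x, hg x x.2⟩) fun x => Subtype.ext (g2 x)
  by_cases h : 2 ∣ Fintype.card S
  · obtain ⟨b, b1, b2⟩ := Equiv.Perm.exists_fixed_point_of_prime' (n := 1) h (σ := σ)
      (by ext x; exact congrArg _ (Subtype.ext (f2 x) : σ (σ x) = x)) (a := ⟨a, ha⟩) (Subtype.ext h1)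
    exact absurd (Subtype.ext (h2 b (congrArg Subtype.val b1))) b2
  · obtain ⟨b, b1⟩ := Equiv.Perm.exists_fixed_point_of_prime (n := 1) h (σ := ρ)
      (by ext x; exact congrArg _ (Subtype.ext (g2 x) : ρ (ρ x) = x))
    exact ⟨b, b.2, congrArg Subtype.val b1⟩

theorem count_fix [Finite Y] (H : Subgroup Y) (A : Set Y) (hA : ∀ a ∈ A, a * a = 1 ∧ Fixu H a)
    (hodd : ∀ u ∈ H, ∀ p k : ℕ, p.Prime → p ≠ 2 → u ^ p ^ k = 1 → ∃ a ∈ A, Commute u a)
    {a1 a2 : Y} (h1 : a1 ∈ A) (h2 : a2 ∈ A) (h3 : a1 * a2 ∈ A) : H = ⊤ := by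
  let D : Y → Prop := fun x => ∃ g, ∃ a ∈ A, x = g * a * g⁻¹
  have fx : ∀ x g : Y, x • (g : Y ⧸ H) = g ↔ g⁻¹ * x * g ∈ H := fun x g => by
    rw [Quotient.smul_coe, smul_eq_mul, eq_comm, QuotientGroup.eq, mul_assoc]
  have d2 : ∀ x, D x → x * x = 1 := by
    rintro _ ⟨g, a, ha, rfl⟩
    simpa using sq_cj (hA a ha).1 g⁻¹
  have dd : ∀ x, D x → ∀ q : Y ⧸ H, x • x • q = q := fun x hx q => by rw [smul_smul, d2 x hx, one_smul]
  have d1 : ∀ g, ∀ a ∈ A, (g * a * g⁻¹) • (g : Y ⧸ H) = g := fun g a ha => by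
    rw [fx]; simpa [mul_assoc] using (hA a ha).2.1
  have du : ∀ x, D x → ∀ p q : Y ⧸ H, x • p = p → x • q = q → p = q := by
    rintro _ ⟨g, a, ha, rfl⟩
    have : ∀ p : Y ⧸ H, (g * a * g⁻¹) • p = p → p = g := fun p => by
      induction p using QuotientGroup.induction_on with
      | H k =>
        rw [fx, eq_comm, QuotientGroup.eq]
        exact fun h => (hA a ha).2.2 _ (by convert h using 1; group)
    exact fun p q a b => (this p a).trans (this q b).symm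
  have dc : ∀ x g, D x → D (g * x * g⁻¹) := by
    rintro _ g ⟨k, a, ha, rfl⟩
    exact ⟨g * k, a, ha, by group⟩
  have ex : ∀ p : Y ⧸ H, ∃ x, D x ∧ x • p = p := fun p => by
    induction p using QuotientGroup.induction_on with
    | H k => exact ⟨_, ⟨k, a1, h1, rfl⟩, d1 k a1 h1⟩
  have inv : ∀ s t, D s → D t → ∀ i : ℕ, (s * t) ^ i * s * (s * t) ^ i = s := fun s t hs ht i => by
    induction i with
    | zero => simp
    | succ i ih =>
      have e : s * t * s * (s * t) = s := by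
        rw [show s * t * s * (s * t) = s * (t * (s * s) * t) by group, d2 s hs, mul_one, d2 t ht, mul_one]
      conv_lhs => rw [pow_succ, pow_mul_comm' (s * t) i]; enter [1, 1]; rw [← pow_mul_comm' (s * t) i]
      rw [show (s * t) ^ i * (s * t) * s * (s * t * (s * t) ^ i) =
        (s * t) ^ i * (s * t * s * (s * t)) * (s * t) ^ i by simp only [mul_assoc], e, ih]
  have odd : ∀ s t, D s → D t → ∀ p : Y ⧸ H, s • p = p →
      ¬ 2 ∣ Function.minimalPeriod ((s * t) • ·) p := by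
    rintro s t hs ht p hp ⟨l, hl⟩
    have a1 : (s * t) ^ l • (s * t) ^ l • p = p := by
      rw [smul_smul, ← pow_add, ← two_mul, pow_smul_eq_iff_minimalPeriod_dvd, hl]
    have a2 : s • (s * t) ^ l • p = (s * t) ^ l • p := by
      apply smul_left_cancel ((s * t) ^ l)
      rw [a1, smul_smul, smul_smul, inv s t hs ht, hp]
    have a3 := pow_smul_eq_iff_minimalPeriod_dvd.mp (du s hs _ _ a2 hp)
    have a4 : 0 < Function.minimalPeriod ((s * t) • ·) p := NeZero.pos _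
    have := Nat.le_of_dvd (by omega) a3
    omega
  have same : ∀ s t, D s → D t → ∀ q p : Y ⧸ H, (s * t) • q = q → s • p = p → t • p = p := by
    intro s t hs ht q p hq hp
    suffices h : (s * t) • p = p by rw [← dd s hs (t • p), smul_smul s t, h, hp]
    rw [← pow_one (s * t), pow_smul_eq_iff_minimalPeriod_dvd, Nat.dvd_one]
    by_contra hm
    obtain ⟨r, r1, r2⟩ := Nat.exists_prime_and_dvd hm
    obtain ⟨k, n, n1, n2⟩ := Nat.exists_eq_pow_mul_and_not_dvd (orderOf_pos (s * t)).ne' r r1.ne_one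
    refine n1 (r2.trans (pow_smul_eq_iff_minimalPeriod_dvd.mp ?_))
    obtain ⟨v, hv⟩ : ∃ v, v = (s * t) ^ n := ⟨_, rfl⟩
    have v1 : v ^ r ^ k = 1 := by rw [hv, ← pow_mul, mul_comm, ← n2, pow_orderOf_eq_one]
    have v2 : v • q = q := by
      rw [hv, pow_smul_eq_iff_minimalPeriod_dvd, Function.minimalPeriod_eq_one_iff_isFixedPt.mpr hq]
      exact one_dvd _
    have v3 : v * s * v = s := hv ▸ inv s t hs ht n
    rw [← hv]
    induction q using QuotientGroup.induction_on with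
    | H g =>
      obtain ⟨a, b1, b2⟩ := hodd _ ((fx v g).mp v2) r k r1 (fun e => odd s t hs ht p hp (e ▸ r2))
        (by rw [show g⁻¹ * v * g = g⁻¹ * v * g⁻¹⁻¹ by group, conj_pow, v1]; group)
      have b3 : v * (g * a * g⁻¹) = g * a * g⁻¹ * v := by
        have := (commute_cj b2 g⁻¹).eq
        simpa [mul_assoc] using this
      have b4 : D (g * a * g⁻¹) := ⟨g, a, b1, rfl⟩
      obtain ⟨x, x1, x2⟩ := exists_fix_of_invol (S := {x : Y ⧸ H | v • x = x})
        (f := ((g * a * g⁻¹) • ·)) (g := (s • ·)) (fun x hx => by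
          show v • _ = _
          rw [smul_smul, b3, ← smul_smul, show v • x = x from hx]) (fun x hx => by
          show v • s • x = s • x
          conv_lhs => rw [← show v • x = x from hx]
          rw [smul_smul, smul_smul, v3]) (dd _ b4) (dd s hs) v2 (d1 g a b1)
        (fun x hx => du _ b4 _ _ hx (d1 g a b1))
      rwa [← du s hs _ _ x2 hp]
  have swap : ∀ q q' : Y ⧸ H, ∃ p, ∃ t, D t ∧ t • q = q' ∧ t • p = p := fun q q' => by
    obtain ⟨s, hs, s1⟩ := ex q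
    obtain ⟨t, ht, t1⟩ := ex q'
    obtain ⟨i, hi⟩ := Nat.odd_iff.mpr (Nat.two_dvd_ne_zero.mp (odd s t hs ht q s1))
    have a1 : (s * t) ^ (2 * i + 1) • q = q := by rw [pow_smul_eq_iff_minimalPeriod_dvd, hi]
    have a2 : t • (s * t) ^ i • q = (s * t) ^ i • q := by
      apply smul_left_cancel ((s * t) ^ (i + 1))
      have e : (s * t) ^ (i + 1) * t * (s * t) ^ i = s := by
        rw [pow_succ, mul_assoc _ _ t, mul_assoc s, d2 t ht, mul_one, inv s t hs ht]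
      rw [smul_smul, smul_smul, e, s1, smul_smul, ← pow_add, show i + 1 + i = 2 * i + 1 by ring, a1]
    have a3 := du t ht _ _ a2 t1
    have a4 : ∀ c : ℕ, (s * t) ^ ((2 * i + 1) * c) • q = q := fun c => by
      rw [pow_smul_eq_iff_minimalPeriod_dvd, hi]; exact Dvd.intro _ rfl
    obtain ⟨l, hl⟩ : ∃ l, l = i * (i + 1) := ⟨_, rfl⟩
    have a5 := dc s ((s * t) ^ l) hs
    obtain ⟨p, hp⟩ : ∃ p : Y ⧸ H, ((s * t) ^ l * s * ((s * t) ^ l)⁻¹) • p = p := by
      obtain ⟨g, a, ha, e⟩ := a5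
      exact ⟨_, e ▸ d1 g a ha⟩
    refine ⟨p, _, a5, ?_, hp⟩
    have e : (s * t) ^ l * s * ((s * t) ^ l)⁻¹ = (s * t) ^ i * (s * t) ^ ((2 * i + 1) * i) * s := by
      rw [← pow_add, show i + (2 * i + 1) * i = l + l by rw [hl]; ring, pow_add]
      have := inv s t hs ht l
      generalize (s * t) ^ l = x at this
      rw [mul_assoc x x, mul_assoc, ← eq_mul_inv_iff_mul_eq.mpr this]
    rw [e, mul_smul, mul_smul, s1, a4, a3]
  rw [eq_top_iff]
  intro g _
  choose f t t1 t2 t3 using swap (g : Y ⧸ H)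
  have uq : ∀ s, D s → ∀ p : Y ⧸ H, s • p = p → f (s • (g : Y ⧸ H)) = p := fun s hs p hp =>
    du _ (t1 _) _ _ (t3 _) (same s _ hs (t1 _) g p (by rw [mul_smul, t2, dd s hs]) hp)
  have fs : Function.Surjective f := fun p => by
    obtain ⟨s, hs, s1⟩ := ex p
    exact ⟨_, uq s hs p s1⟩
  have b : ∀ a ∈ A, D a ∧ a • ((1 : Y) : Y ⧸ H) = (1 : Y) := fun a ha =>
    ⟨⟨1, a, ha, by group⟩, by simpa using d1 1 a ha⟩
  have e := Finite.injective_iff_surjective.mpr fs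
    ((uq _ (b a1 h1).1 _ (b a1 h1).2).trans (uq _ (b a2 h2).1 _ (b a2 h2).2).symm)
  refine (hA _ h3).2.2 g ((fx _ _).mp ?_)
  rw [mul_smul, ← e, dd _ (b a1 h1).1]

/-- An abelian group `E` of involutions, some with a unique fixed coset. -/
theorem top_core [Finite Y] (H E : Subgroup Y) (A : Set Y) (hA : ∀ a ∈ A, a ∈ E ∧ Fixu H a)
    (hE : ∀ x ∈ E, x * x = 1) (hc : ∀ a ∈ A, ∀ h ∈ H, h⁻¹ * a * h ∈ A)
    (hodd : ∀ c ∈ E, c ≠ 1 → ∀ u ∈ H, Commute u c → ∀ p k : ℕ, p.Prime → p ≠ 2 → u ^ p ^ k = 1 →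
      ∃ a ∈ A, Commute u a)
    {a1 a2 w : Y} (h1 : a1 ∈ A) (h2 : a2 ∈ A) (h3 : a1 * a2 ∈ A) (hw : w ∈ E)
    (n1 : ¬ IsConj a1 w) (n2 : ¬ IsConj a1 (w * a1)) : H = ⊤ := by
  have ab : ∀ x ∈ E, ∀ y ∈ E, Commute x y := fun x hx y hy => by
    rw [commute_iff_sq (hE x hx) (hE y hy), ← mul_assoc]
    exact hE _ (E.mul_mem hx hy)
  have cen : ∀ c ∈ E, c ≠ 1 → ∀ y, Commute y c → y ∈ H := fun c c1 c2 y hy => by
    let C := Subgroup.centralizer ({c} : Set Y)
    have m : ∀ {x}, x ∈ C ↔ Commute x c := Subgroup.mem_centralizer_singleton_iff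
    have := count_fix (H.subgroupOf C) {a | a.1 ∈ A}
      (fun a ha => ⟨Subtype.ext (hE _ (hA _ ha).1), (hA _ ha).2.1, fun g hg => (hA _ ha).2.2 g hg⟩)
      (fun u hu p k p1 p2 e => by
        obtain ⟨a, b1, b2⟩ := hodd c c1 c2 u hu (m.mp u.2) p k p1 p2 (congrArg Subtype.val e)
        exact ⟨⟨a, m.mpr (ab _ (hA a b1).1 c c1)⟩, b1, Subtype.ext b2.eq⟩)
      (a1 := ⟨a1, m.mpr (ab _ (hA _ h1).1 c c1)⟩) (a2 := ⟨a2, m.mpr (ab _ (hA _ h2).1 c c1)⟩) h1 h2 h3
    exact (this ▸ Subgroup.mem_top (⟨y, m.mpr hy⟩ : C) : _ ∈ H.subgroupOf C)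
  have F := (hA _ h1).2
  have inA : ∀ g, g⁻¹ * a1 * g ∈ H → g⁻¹ * a1 * g ∈ A := fun g hg => hc _ h1 g (F.2 g hg)
  have key : ∀ w ∈ E, ¬ IsConj a1 w → ∀ y, y * w * y⁻¹ ∈ H := fun w hw n y => by
    by_cases w1 : w = 1
    · rw [w1, mul_one, mul_inv_cancel]; exact H.one_mem
    have u2 := sq_cj (hE _ (hA _ h1).1) y
    rcases dihedral (hE w hw) u2 with ⟨j, e⟩ | ⟨c, c1, _, c3, c4, _, i, j, ⟨_, e⟩ | ⟨e, _⟩⟩
    · exact absurd ((isConj_cj a1 y).trans (e ▸ isConj_cj w _ : IsConj w _).symm) n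
    · generalize (w * (y⁻¹ * a1 * y)) ^ j = x at e
      have b1 : (y * x * y⁻¹)⁻¹ * a1 * (y * x * y⁻¹) = y * c * y⁻¹ * a1 := by
        rw [show y * c * y⁻¹ * a1 = y * (c * (y⁻¹ * a1 * y)) * y⁻¹ by group, e]; group
      have b2 : Commute (y * c * y⁻¹) a1 := by
        have := commute_cj c4 y⁻¹
        simpa [mul_assoc] using this
      have b3 := (hA _ (inA _ (b1 ▸ H.mul_mem (F.comm b2) F.1))).1
      rw [b1] at b3
      refine cen (y * c * y⁻¹) (by simpa using E.mul_mem b3 (E.inv_mem (hA _ h1).1))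
        (fun e => c1 (by simpa using e)) _ ?_
      simpa using commute_cj c3.symm y⁻¹
    · generalize (w * (y⁻¹ * a1 * y)) ^ i = x at e
      have b1 : (y * x)⁻¹ * a1 * (y * x) = c * w := by rw [e]; group
      have b2 := (hA _ (inA _ (b1 ▸ cen w hw w1 _ (c3.mul_left (Commute.refl w))))).1
      rw [b1] at b2
      have b3 := F.2 y (cen c (by simpa using E.mul_mem b2 (E.inv_mem hw)) c1 _ c4.symm)
      exact H.mul_mem (H.mul_mem b3 (cen w hw w1 w (Commute.refl w))) (H.inv_mem b3)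
  rw [eq_top_iff]
  intro g _
  refine F.2 g ?_
  have := H.mul_mem (key w hw n1 g⁻¹) (key _ (E.mul_mem hw (hA _ h1).1) n2 g⁻¹)
  rwa [show g⁻¹ * w * g⁻¹⁻¹ * (g⁻¹ * (w * a1) * g⁻¹⁻¹) = g⁻¹ * (w * w * a1) * g by group, hE w hw,
    one_mul] at this

end Cfsg.H6
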