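import Cfsg.Agent.H6.HNR.Fis

/-! Dihedral arguments: a subgroup that contains the centralisers of its involutions. -/

set_option autoImplicit false

namespace Cfsg.H6

variable {G : Type*} [Group G]

theorem isConj_cj (x g : G) : IsConj x (g⁻¹ * x * g) := isConj_iff.mpr ⟨g⁻¹, by rw [inv_inv]⟩

theorem IsConj.exists_cj {x y : G} (h : IsConj x y) : ∃ g, g⁻¹ * x * g = y := by
  obtain ⟨g, rfl⟩ := isConj_iff.mp h
  exact ⟨g⁻¹, by rw [inv_inv]⟩

theorem sq_cj {x : G} (h : x * x = 1) (g : G) : g⁻¹ * x * g * (g⁻¹ * x * g) = 1 := by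
  rw [show g⁻¹ * x * g * (g⁻¹ * x * g) = g⁻¹ * (x * x) * g by group, h]; group

theorem sq_of_isConj {x y : G} (h : x * x = 1) (e : IsConj x y) : y * y = 1 := by
  obtain ⟨g, rfl⟩ := IsConj.exists_cj e
  exact sq_cj h g

theorem commute_cj {x y : G} (h : Commute x y) (g : G) : Commute (g⁻¹ * x * g) (g⁻¹ * y * g) := by
  unfold Commute SemiconjBy
  rw [show g⁻¹ * x * g * (g⁻¹ * y * g) = g⁻¹ * (x * y) * g by group, h.eq]; group

theorem cj_of_commute {x g : G} (h : Commute g x) : g⁻¹ * x * g = x := by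
  rw [mul_assoc, ← h.eq]; group

theorem commute_of_cj {x g : G} (h : g⁻¹ * x * g = x) : Commute g x := by
  unfold Commute SemiconjBy
  conv_lhs => rw [← h]
  group

theorem cube_of_sq {x : G} (h : x * x = 1) : x ^ 3 = x := by
  rw [pow_succ x 2, sq, h, one_mul]

theorem sq_mul {x y : G} (hx : x * x = 1) (hy : y * y = 1) (h : Commute x y) :
    x * y * (x * y) = 1 := by
  rw [mul_assoc, ← mul_assoc y, ← h.eq, mul_assoc, hy, mul_one, hx]

/-- Two involutions are conjugate in the group they generate, or commute with a third one. -/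
theorem dihedral [Finite G] {u v : G} (hu : u * u = 1) (hv : v * v = 1) :
    (∃ j : ℕ, ((u * v) ^ j)⁻¹ * u * (u * v) ^ j = v) ∨
    ∃ c, c ≠ 1 ∧ c * c = 1 ∧ Commute c u ∧ Commute c v ∧ (∃ k : ℕ, c = (u * v) ^ k) ∧ ∃ i j : ℕ,
      ((c * u = ((u * v) ^ i)⁻¹ * u * (u * v) ^ i ∧ c * v = ((u * v) ^ j)⁻¹ * v * (u * v) ^ j) ∨
       (c * u = ((u * v) ^ i)⁻¹ * v * (u * v) ^ i ∧ c * v = ((u * v) ^ j)⁻¹ * u * (u * v) ^ j)) := by
  set ρ := u * v with hρ
  have hv' : v = u * ρ := by rw [hρ, ← mul_assoc, hu, one_mul]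
  have h0 : ρ⁻¹ * u = u * ρ := by
    rw [hρ, mul_inv_rev, inv_eq_of_mul_eq_one_right hu, inv_eq_of_mul_eq_one_right hv, mul_assoc, hu,
      ← mul_assoc, hu, one_mul, mul_one]
  have h1 : ∀ j : ℕ, (ρ ^ j)⁻¹ * u = u * ρ ^ j := fun j => by
    induction j with
    | zero => simp
    | succ j ih => rw [pow_succ, mul_inv_rev, mul_assoc, ih, ← mul_assoc, h0]; group
  have h2 : ∀ j : ℕ, (ρ ^ j)⁻¹ * u * ρ ^ j = u * ρ ^ (2 * j) := fun j => by rw [h1]; group
  have h3 : ∀ j : ℕ, (ρ ^ j)⁻¹ * v * ρ ^ j = u * ρ ^ (2 * j + 1) := fun j => by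
    rw [hv', ← mul_assoc, h1]; group
  have ho := pow_orderOf_eq_one ρ
  have hpos := orderOf_pos ρ
  rcases Nat.even_or_odd' (orderOf ρ) with ⟨k, hk | hk⟩
  · right
    rw [hk] at ho hpos
    have hc : ρ ^ k * ρ ^ k = 1 := by rw [← pow_add, ← two_mul, ho]
    have hcu : ρ ^ k * u = u * ρ ^ k := by rw [← h1, inv_eq_of_mul_eq_one_right hc]
    have hcv : ρ ^ k * v = u * ρ ^ (k + 1) := by rw [hv', ← mul_assoc, hcu]; group
    refine ⟨ρ ^ k, pow_ne_one_of_lt_orderOf (by omega) (by omega), hc, hcu, ?_, ⟨k, rfl⟩, ?_⟩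
    · show _ = _
      rw [hcv, hv']; group
    · rcases Nat.even_or_odd' k with ⟨j, hj | hj⟩
      · exact ⟨j, j, Or.inl ⟨by rw [hcu, h2, hj], by rw [hcv, h3, hj]⟩⟩
      · exact ⟨j, j + 1, Or.inr ⟨by rw [hcu, h3, hj], by rw [hcv, h2, hj]; rfl⟩⟩
  · left
    refine ⟨k + 1, ?_⟩
    rw [h2, show 2 * (k + 1) = 2 * k + 1 + 1 by ring, pow_succ, ← hk, ho, one_mul, ← hv']

/-- The element fixes just one coset of `H`. -/
def Fixu (H : Subgroup G) (x : G) : Prop := x ∈ H ∧ ∀ g, g⁻¹ * x * g ∈ H → g ∈ H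

theorem Fixu.comm {H : Subgroup G} {x y : G} (h : Fixu H x) (e : Commute y x) : y ∈ H :=
  h.2 y (by rw [cj_of_commute e]; exact h.1)

theorem Fixu.cj {H : Subgroup G} {x g : G} (h : Fixu H x) (hg : g ∈ H) :
    Fixu H (g⁻¹ * x * g) := by
  refine ⟨H.mul_mem (H.mul_mem (H.inv_mem hg) h.1) hg, fun k hk => ?_⟩
  have := h.2 (g * k) (by rwa [show (g * k)⁻¹ * x * (g * k) = k⁻¹ * (g⁻¹ * x * g) * k by group])
  simpa using H.mul_mem (H.inv_mem hg) this

theorem not_sq_of_cj {d x : G} (h : ∀ y, y * y ≠ d) (e : IsConj d x) (y : G) : y * y ≠ x := by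
  obtain ⟨g, rfl⟩ := IsConj.exists_cj e
  intro e1
  exact h (g * y * g⁻¹) (by rw [show g * y * g⁻¹ * (g * y * g⁻¹) = g * (y * y) * g⁻¹ by group, e1]; group)

/-- The facts on a Fischer group that the last step needs. -/
structure FF {Γ : Type*} [Group Γ] (τ e f : Γ) : Prop where
  sq : τ * τ = 1
  ne : τ ≠ 1
  cls : ∀ x : Γ, x * x = 1 → x = 1 ∨ IsConj τ x ∨ IsConj (τ * e) x ∨ IsConj (τ * e * f) x
  r1 : ∃ y, y * y = τ * e
  r2 : ∃ y, y * y = τ * e * f
  ce : IsConj τ e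
  cf : IsConj τ f
  te : Commute e τ
  tf : Commute f τ
  ef : Commute f e
  ne1 : e ≠ τ
  pair : ∀ u v, IsConj τ u → IsConj τ v → Commute u v → u ≠ v → IsConj (τ * e) (u * v)
  triple : ∀ t, IsConj τ t → Commute t τ → Commute t e → t ≠ τ → t ≠ e →
    ∃ h, Commute h τ ∧ Commute h e ∧ h⁻¹ * t * h = f
  three : ∀ u v, IsConj τ u → IsConj τ v → Commute u v ∨ (u * v) ^ 3 = 1
  odd : ∃ ts : List Γ, Odd ts.length ∧ ts.prod = τ * e ∧
    ∀ t ∈ ts, IsConj τ t ∧ Commute t τ ∧ Commute t e ∧ t ≠ τ ∧ t ≠ e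
  four : ∃ t, IsConj τ t ∧ Commute t (τ * e * f) ∧ ¬ IsConj (e * f) (t * (τ * e * f))

variable {Γ : Type*} [Group Γ]

theorem FF.two {τ e f : Γ} (F : FF τ e f) {u : Γ} (hu : IsConj τ u) (h1 : Commute u (τ * e))
    (h2 : ¬ IsConj (τ * e * f) (τ * e * u)) : u = τ ∨ u = e := by
  have he2 := sq_of_isConj F.sq F.ce
  have e1 : e = τ * (τ * e) := by rw [← mul_assoc, F.sq, one_mul]
  have e2 : τ = e * (τ * e) := by rw [← F.te.eq, ← mul_assoc, he2, one_mul]
  by_contra hc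
  rw [not_or] at hc
  rcases F.three u τ hu (IsConj.refl _) with h3 | h3
  · have h4 : Commute u e := by rw [e1]; exact h3.mul_right h1
    obtain ⟨h, k1, k2, k3⟩ := F.triple u hu h3 h4 hc.1 hc.2
    apply h2
    have := isConj_cj (τ * e * u) h
    rw [show h⁻¹ * (τ * e * u) * h = (h⁻¹ * τ * h) * (h⁻¹ * e * h) * (h⁻¹ * u * h) by group,
      cj_of_commute k1, cj_of_commute k2, k3] at this
    exact this.symm
  · rcases F.three u e hu F.ce with h4 | h4
    · have h5 : Commute u τ := by rw [e2]; exact h4.mul_right h1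
      rw [h5.mul_pow, cube_of_sq F.sq, cube_of_sq (sq_of_isConj F.sq hu),
        mul_eq_one_iff_eq_inv, inv_eq_of_mul_eq_one_right F.sq] at h3
      exact hc.1 h3
    · have h5 : Commute (u * τ) (τ * e) := h1.mul_left ((Commute.refl τ).mul_right F.te.symm)
      have h6 : τ * e * (τ * e) = 1 := sq_mul F.sq he2 F.te.symm
      rw [e1, ← mul_assoc, h5.mul_pow, h3, one_mul, cube_of_sq h6,
        mul_eq_one_iff_eq_inv, inv_eq_of_mul_eq_one_right he2] at h4
      exact F.ne1 h4.symm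

theorem fischer_top [Finite G] {τ e f : Γ} (F : FF τ e f) (Φ : Γ →* G) (hΦ : Function.Injective Φ)
    (hC : ∀ y, Commute y (Φ τ) → y ∈ Φ.range) (hns : ∀ y, y * y ≠ Φ τ) :
    Function.Surjective Φ := by
  set H := Φ.range
  have mem : ∀ x, Φ x ∈ H := fun x => ⟨x, rfl⟩
  have mcj : ∀ x g, Φ (g⁻¹ * x * g) = (Φ g)⁻¹ * Φ x * Φ g := fun x g => by simp
  have n1 : ¬ IsConj (Φ τ) (Φ (τ * e)) := fun h => by
    obtain ⟨y, hy⟩ := F.r1
    exact not_sq_of_cj hns h (Φ y) (by rw [← map_mul, hy])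
  have n2 : ¬ IsConj (Φ τ) (Φ (τ * e * f)) := fun h => by
    obtain ⟨y, hy⟩ := F.r2
    exact not_sq_of_cj hns h (Φ y) (by rw [← map_mul, hy])
  have d2 : Φ τ * Φ τ = 1 := by rw [← map_mul, F.sq, map_one]
  have back : ∀ x, IsConj (Φ τ) (Φ x) → IsConj τ x := fun x h => by
    rcases F.cls x (hΦ (by rw [map_mul, map_one]; exact sq_of_isConj d2 h)) with h1 | h1 | h1 | h1
    · rw [h1, map_one, isConj_one_left] at h
      exact absurd (hΦ (h.trans (map_one Φ).symm)) F.ne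
    · exact h1
    · exact absurd (h.trans (Φ.map_isConj h1).symm) n1
    · exact absurd (h.trans (Φ.map_isConj h1).symm) n2
  have U1 : Fixu H (Φ τ) := ⟨mem τ, fun g ⟨x, hx⟩ => by
    obtain ⟨h, hh⟩ := IsConj.exists_cj (back x (hx ▸ isConj_cj _ g))
    have := hC (g * (Φ h)⁻¹) (commute_of_cj (by
      rw [show (g * (Φ h)⁻¹)⁻¹ * Φ τ * (g * (Φ h)⁻¹) = Φ h * (g⁻¹ * Φ τ * g) * (Φ h)⁻¹ by group,
        ← hx, ← hh, mcj]
      group))
    simpa using H.mul_mem this (mem h)⟩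
  have Fcj : ∀ x y, IsConj x y → Fixu H (Φ x) → Fixu H (Φ y) := fun x y h h1 => by
    obtain ⟨g, rfl⟩ := IsConj.exists_cj h
    rw [mcj]; exact h1.cj (mem g)
  have UD : ∀ x, IsConj τ x → Fixu H (Φ x) := fun x h => Fcj _ _ h U1
  have c1 : Commute (τ * e) τ := (Commute.refl τ).mul_left F.te
  have c2 : Commute (τ * e * f) τ := c1.mul_left F.tf
  have ofC : ∀ s, s * s = 1 → (∀ y, Commute y (Φ s) → y ∈ H) → Fixu H (Φ s) := fun s hs h =>
    ⟨mem s, fun g ⟨x, hx⟩ => by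
      have hx2 : x * x = 1 := hΦ (by
        rw [map_mul, map_one, hx]; exact sq_cj (by rw [← map_mul, hs, map_one]) g)
      obtain ⟨u, hu, hc⟩ : ∃ u, IsConj τ u ∧ Commute x u := by
        rcases F.cls x hx2 with h1 | h1 | h1 | h1
        · exact ⟨τ, IsConj.refl _, h1 ▸ Commute.one_left _⟩
        · exact ⟨x, h1, Commute.refl _⟩
        · obtain ⟨k, rfl⟩ := IsConj.exists_cj h1
          exact ⟨_, isConj_cj τ k, commute_cj c1 k⟩
        · obtain ⟨k, rfl⟩ := IsConj.exists_cj h1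
          exact ⟨_, isConj_cj τ k, commute_cj c2 k⟩
      have h2 := commute_cj (hc.map Φ) g⁻¹
      rw [hx, show g⁻¹⁻¹ * (g⁻¹ * Φ s * g) * g⁻¹ = Φ s by group] at h2
      exact (H.inv_mem_iff).mp ((UD u hu).2 _ (h _ h2.symm))⟩
  have he2 := sq_of_isConj F.sq F.ce
  have hf2 := sq_of_isConj F.sq F.cf
  have s2 : τ * e * (τ * e) = 1 := sq_mul F.sq he2 F.te.symm
  have s3 : τ * e * f * (τ * e * f) = 1 := sq_mul s2 hf2 (F.tf.mul_right F.ef).symm
  have two : ∀ z, Commute z (Φ (τ * e)) → z⁻¹ * Φ τ * z ∈ H →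
      z⁻¹ * Φ τ * z = Φ τ ∨ z⁻¹ * Φ τ * z = Φ e := fun z hz hm => by
    obtain ⟨k, rfl⟩ := U1.2 z hm
    have hk : Commute k (τ * e) := hΦ (by rw [map_mul, map_mul Φ (τ * e)]; exact hz.eq)
    have h1 := commute_cj c1.symm k
    rw [cj_of_commute hk] at h1
    rw [← mcj]
    refine (F.two (isConj_cj τ k) h1 fun h => n2 ?_).imp (congrArg Φ) (congrArg Φ)
    have h2 : τ * e * (k⁻¹ * τ * k) = k⁻¹ * e * k := by
      conv_lhs => rw [← cj_of_commute hk]
      rw [show k⁻¹ * (τ * e) * k * (k⁻¹ * τ * k) = k⁻¹ * (τ * (e * τ)) * k by group, F.te.eq,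
        ← mul_assoc τ, F.sq, one_mul]
    rw [h2] at h
    exact Φ.map_isConj ((F.ce.trans (isConj_cj e k)).trans h.symm)
  have U2 : Fixu H (Φ (τ * e)) := ofC _ s2 fun y hy => by
    by_contra hyH
    obtain ⟨s, hs⟩ : ∃ s, s = Φ (τ * e) := ⟨_, rfl⟩
    obtain ⟨u, hu⟩ : ∃ u, u = y⁻¹ * Φ τ * y := ⟨_, rfl⟩
    rw [← hs] at hy two
    have us : Commute u s := by
      have := commute_cj (c1.map Φ).symm y
      rwa [← hs, ← hu, cj_of_commute hy] at this
    have sH : y * s * y⁻¹ ∈ H := by rw [hy.eq, mul_inv_cancel_right, hs]; exact mem _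
    have key : ∀ t, IsConj τ t → Commute t τ → Commute t e → t ≠ τ → t ≠ e →
        y * Φ (τ * t) * y⁻¹ ∈ H := by
      intro t h1 h2 h3 h4 h5
      have ts : Commute (Φ t) s := hs ▸ (h2.mul_right h3).map Φ
      have px : ∀ j : ℕ, Commute ((Φ t * u) ^ j) s := fun j => (ts.mul_left us).pow_left j
      have t2 : Φ t * Φ t = 1 := by rw [← map_mul, sq_of_isConj F.sq h1, map_one]
      have cjx : ∀ x, x⁻¹ * u * x = (y * x)⁻¹ * Φ τ * (y * x) := fun x => by rw [hu]; group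
      have hj : ∀ j : ℕ, ((Φ t * u) ^ j)⁻¹ * Φ t * (Φ t * u) ^ j ≠ u := fun j hj => by
        have h6 : Φ t = (y * ((Φ t * u) ^ j)⁻¹)⁻¹ * Φ τ * (y * ((Φ t * u) ^ j)⁻¹) := by
          rw [← cjx]
          generalize (Φ t * u) ^ j = x at hj
          rw [← hj]
          group
        rcases two _ (hy.mul_left (px j).inv_left) (h6 ▸ mem t) with h7 | h7
        · exact h4 (hΦ (h6.trans h7))
        · exact h5 (hΦ (h6.trans h7))
      rcases dihedral t2 (show u * u = 1 from hu ▸ sq_cj d2 y) with ⟨j, h6⟩ | ⟨c, k1, k2, k3, k4, _, i, j, k5⟩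
      · exact absurd h6 (hj j)
      have cH : c ∈ H := (UD t h1).comm k3
      have cH' : y * c * y⁻¹ ∈ H := U1.comm (by
        have := commute_cj k4 y⁻¹
        rwa [inv_inv, hu, show y * (y⁻¹ * Φ τ * y) * y⁻¹ = Φ τ by group] at this)
      rcases k5 with ⟨k5, k6⟩ | ⟨k5, _⟩
      · exfalso
        have k7 : (y * (Φ t * u) ^ j * y⁻¹)⁻¹ * Φ τ * (y * (Φ t * u) ^ j * y⁻¹) =
            y * c * y⁻¹ * Φ τ := by
          rw [show y * c * y⁻¹ * Φ τ = y * (c * (y⁻¹ * Φ τ * y)) * y⁻¹ by group, ← hu, k6]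
          generalize (Φ t * u) ^ j = x
          rw [hu]; group
        rcases two _ ((hy.mul_left (px j)).mul_left hy.inv_left)
          (k7 ▸ H.mul_mem cH' (mem τ)) with h7 | h7
        · rw [k7, mul_eq_right] at h7
          exact k1 (by rw [show c = y⁻¹ * (y * c * y⁻¹) * y by group, h7]; group)
        · rw [k7, ← eq_mul_inv_iff_mul_eq, inv_eq_of_mul_eq_one_right d2, ← map_mul, F.te.eq,
            ← hs] at h7
          have h8 : c = s := by
            rw [show c = y⁻¹ * (y * c * y⁻¹) * y by group, h7, cj_of_commute hy]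
          obtain ⟨h, m1, m2, m3⟩ := F.triple t h1 h2 h3 h4 h5
          have h9 := isConj_cj (τ * e * t) h
          rw [show h⁻¹ * (τ * e * t) * h = (h⁻¹ * τ * h) * (h⁻¹ * e * h) * (h⁻¹ * t * h) by group,
            cj_of_commute m1, cj_of_commute m2, m3] at h9
          refine n2 (((Φ.map_isConj h1).trans ?_).trans (Φ.map_isConj h9))
          rw [map_mul Φ (τ * e), ← hs, ← h8, k5]
          exact isConj_cj _ _
      · rw [cjx] at k5
        rcases two _ (hy.mul_left (px i)) (k5 ▸ H.mul_mem cH (mem t)) with h7 | h7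
        · rw [← k5, ← eq_mul_inv_iff_mul_eq, inv_eq_of_mul_eq_one_right t2] at h7
          rwa [map_mul, ← h7]
        · rw [← k5, ← eq_mul_inv_iff_mul_eq, inv_eq_of_mul_eq_one_right t2] at h7
          have h8 : Φ (τ * t) = s * c := by
            rw [h7, hs, ← map_mul, ← map_mul, mul_assoc, ← mul_assoc e, he2, one_mul]
          rw [h8, show y * (s * c) * y⁻¹ = (y * s * y⁻¹) * (y * c * y⁻¹) by group]
          exact H.mul_mem sH cH'
    obtain ⟨ts, ⟨k, hk⟩, hp, ht⟩ := F.odd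
    have prod : ∀ l : List Γ, (∀ t ∈ l, IsConj τ t ∧ Commute t τ ∧ Commute t e ∧ t ≠ τ ∧ t ≠ e) →
        y * Φ (τ ^ l.length * l.prod) * y⁻¹ ∈ H := by
      intro l
      induction l with
      | nil => intro _; simp
      | cons t l ih =>
        intro hl
        obtain ⟨a1, a2, a3, a4, a5⟩ := hl t (by simp)
        have := H.mul_mem (key t a1 a2 a3 a4 a5) (ih fun x hx => hl x (by simp [hx]))
        rw [List.length_cons, List.prod_cons, pow_succ', mul_assoc τ, ← mul_assoc (τ ^ _),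
          ← (a2.pow_right _).eq, mul_assoc t, ← mul_assoc τ, map_mul]
        convert this using 1
        group
    have := prod ts ht
    rw [hk, hp, pow_succ, pow_mul, sq, F.sq, one_pow, one_mul, ← mul_assoc τ, F.sq, one_mul] at this
    exact hyH ((H.inv_mem_iff).mp ((UD e F.ce).2 y⁻¹ (by rwa [inv_inv])))
  have U3 : ∀ x v, IsConj τ x → IsConj (Φ τ) v → v ∉ H →
      ∃ j : ℕ, ((Φ x * v) ^ j)⁻¹ * Φ x * (Φ x * v) ^ j = v := by
    intro x v hx hv hvH
    have x2 : Φ x * Φ x = 1 := by rw [← map_mul, sq_of_isConj F.sq hx, map_one]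
    rcases dihedral x2 (sq_of_isConj d2 hv) with h | ⟨c, k1, _, k3, k4, _, i, j, k5⟩
    · exact h
    exfalso
    obtain ⟨c', rfl⟩ := (UD x hx).comm k3
    have h1 : IsConj (Φ τ) (Φ (c' * x)) := by
      rw [map_mul]
      rcases k5 with ⟨k5, _⟩ | ⟨k5, _⟩
      · rw [k5]; exact (Φ.map_isConj hx).trans (isConj_cj _ _)
      · rw [k5]; exact hv.trans (isConj_cj _ _)
    have h2 : Commute c' x := hΦ (by rw [map_mul, map_mul]; exact k3.eq)
    have h3 := F.pair _ _ (back _ h1) hx (h2.mul_left (Commute.refl x)) (fun e1 => k1 (by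
      rw [mul_eq_right.mp e1, map_one]))
    rw [mul_assoc, sq_of_isConj F.sq hx, mul_one] at h3
    exact hvH ((Fcj _ _ h3 U2).comm k4.symm)
  have U4 : Fixu H (Φ (τ * e * f)) := ofC _ s3 fun y hy => by
    by_contra hyH
    obtain ⟨t, h1, h2, h3⟩ := F.four
    obtain ⟨j, hj⟩ := U3 t (y⁻¹ * Φ τ * y) h1 (isConj_cj _ y) fun h => hyH (U1.2 y h)
    have us : Commute (y⁻¹ * Φ τ * y) (Φ (τ * e * f)) := by
      have := commute_cj (c2.map Φ).symm y
      rwa [cj_of_commute hy] at this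
    have px := (hy.mul_left (((h2.map Φ).mul_left us).pow_left j).inv_left)
    generalize (Φ t * (y⁻¹ * Φ τ * y)) ^ j = x at hj px
    have h4 : (y * x⁻¹)⁻¹ * Φ τ * (y * x⁻¹) = Φ t := by
      rw [show (y * x⁻¹)⁻¹ * Φ τ * (y * x⁻¹) = x * (y⁻¹ * Φ τ * y) * x⁻¹ by group, ← hj]; group
    obtain ⟨k, hk⟩ := U1.2 _ (h4 ▸ mem t)
    rw [← hk] at h4 px
    have h5 : k⁻¹ * τ * k = t := hΦ (by rw [mcj, h4])
    have h6 : Commute k (τ * e * f) := hΦ (by rw [map_mul, map_mul Φ (τ * e * f)]; exact px.eq)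
    apply h3
    have := isConj_cj (τ * (τ * e * f)) k
    rw [show k⁻¹ * (τ * (τ * e * f)) * k = (k⁻¹ * τ * k) * (k⁻¹ * (τ * e * f) * k) by group, h5,
      cj_of_commute h6, ← mul_assoc, ← mul_assoc, F.sq, one_mul] at this
    exact this
  intro g
  by_contra hg
  have v2 : Φ (τ * e) * Φ (τ * e) = 1 := by rw [← map_mul, s2, map_one]
  rcases dihedral d2 (sq_cj v2 g) with ⟨j, h⟩ | ⟨c, k1, k2, k3, k4, _⟩
  · exact n1 ((h ▸ isConj_cj (Φ τ) _).trans (isConj_cj _ g).symm)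
  · obtain ⟨c', rfl⟩ := U1.comm k3
    have h1 : Fixu H (Φ c') := by
      rcases F.cls c' (hΦ (by rw [map_mul, map_one, k2])) with h1 | h1 | h1 | h1
      · exact absurd (by rw [h1, map_one]) k1
      · exact UD _ h1
      · exact Fcj _ _ h1 U2
      · exact Fcj _ _ h1 U4
    exact hg (U2.2 g (h1.comm k4.symm))

end Cfsg.H6
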