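import Cfsg.Agent.H6.HNR.Fis2

/-! Identifications of centralisers, fusion, and lifting of involutions to double covers. -/

set_option autoImplicit false

namespace Cfsg.H6

open scoped commutatorElement

variable {G : Type*} [Group G] {Γ : Type*} [Group Γ]

/-- `F` maps the centraliser of `y'` isomorphically onto the centraliser of `y`. -/
structure Emb0 (y' : Γ) (y : G) (F : Γ → G) : Prop where
  mul : ∀ a b, Commute a y' → Commute b y' → F (a * b) = F a * F b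
  inj : ∀ a, Commute a y' → F a = 1 → a = 1
  surj : ∀ x, Commute x y → ∃ a, Commute a y' ∧ F a = x
  base : F y' = y

namespace Emb0

variable {y' : Γ} {y : G} {F : Γ → G}

theorem one (h : Emb0 y' y F) : F 1 = 1 := by
  have := h.mul 1 1 (Commute.one_left _) (Commute.one_left _)
  rw [one_mul] at this
  exact mul_eq_left.mp this.symm

theorem inv (h : Emb0 y' y F) {a : Γ} (ha : Commute a y') : F a⁻¹ = (F a)⁻¹ := by
  rw [eq_inv_iff_mul_eq_one, ← h.mul _ _ ha.inv_left ha, inv_mul_cancel, h.one]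

theorem cj (h : Emb0 y' y F) {a g : Γ} (ha : Commute a y') (hg : Commute g y') :
    F (g⁻¹ * a * g) = (F g)⁻¹ * F a * F g := by
  rw [h.mul _ _ (hg.inv_left.mul_left ha) hg, h.mul _ _ hg.inv_left ha, h.inv hg]

theorem eq (h : Emb0 y' y F) {a b : Γ} (ha : Commute a y') (hb : Commute b y') (e : F a = F b) :
    a = b := by
  rw [← mul_inv_eq_one]
  apply h.inj _ (ha.mul_left hb.inv_left)
  rw [h.mul _ _ ha hb.inv_left, h.inv hb, e, mul_inv_cancel]

theorem comm (h : Emb0 y' y F) {a b : Γ} (ha : Commute a y') (hb : Commute b y') :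
    Commute (F a) (F b) ↔ Commute a b := by
  unfold Commute SemiconjBy
  rw [← h.mul _ _ ha hb, ← h.mul _ _ hb ha]
  exact ⟨h.eq (ha.mul_left hb) (hb.mul_left ha), congrArg F⟩

theorem mem (h : Emb0 y' y F) {a : Γ} (ha : Commute a y') : Commute (F a) y :=
  h.base ▸ (h.comm ha (Commute.refl _)).mpr ha

theorem evL (h : Emb0 y' y F) {xs : ℕ → Γ} {w : List ℕ} (hw : ∀ l ∈ w, Commute (xs l) y') :
    Commute (H6.evL xs w) y' ∧ F (H6.evL xs w) = H6.evL (fun l => F (xs l)) w := by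
  induction w with
  | nil => exact ⟨Commute.one_left _, h.one⟩
  | cons x w ih =>
    obtain ⟨h1, h2⟩ := ih fun l hl => hw l (by simp [hl])
    have h3 := hw x (by simp)
    rw [evL_cons, evL_cons, h.mul _ _ h3 h1, h2]
    exact ⟨h3.mul_left h1, rfl⟩

theorem move (h : Emb0 y' y F) (γ : Γ) (g : G) :
    Emb0 (γ⁻¹ * y' * γ) (g⁻¹ * y * g) fun a => g⁻¹ * F (γ * a * γ⁻¹) * g := by
  have k : ∀ a, Commute a (γ⁻¹ * y' * γ) → Commute (γ * a * γ⁻¹) y' := fun a ha => by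
    have := commute_cj ha γ⁻¹
    rwa [inv_inv, show γ * (γ⁻¹ * y' * γ) * γ⁻¹ = y' by group] at this
  refine ⟨fun a b ha hb => ?_, fun a ha e => ?_, fun x hx => ?_, ?_⟩
  · rw [show γ * (a * b) * γ⁻¹ = (γ * a * γ⁻¹) * (γ * b * γ⁻¹) by group, h.mul _ _ (k a ha) (k b hb)]
    group
  · have h1 := h.inj _ (k a ha) (by
      rw [show F (γ * a * γ⁻¹) = g * (g⁻¹ * F (γ * a * γ⁻¹) * g) * g⁻¹ by group, e]; group)
    rw [show a = γ⁻¹ * (γ * a * γ⁻¹) * γ by group, h1]; group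
  · have := commute_cj hx g⁻¹
    rw [inv_inv, show g * (g⁻¹ * y * g) * g⁻¹ = y by group] at this
    obtain ⟨a, ha, e⟩ := h.surj _ this
    refine ⟨γ⁻¹ * a * γ, commute_cj ha γ, ?_⟩
    rw [show γ * (γ⁻¹ * a * γ) * γ⁻¹ = a by group, e]; group
  · rw [show γ * (γ⁻¹ * y' * γ) * γ⁻¹ = y' by group, h.base]

theorem not_sq (h : Emb0 y' y F) (hn : ∀ a, Commute a y' → a * a ≠ y') (x : G) : x * x ≠ y := by
  intro e
  obtain ⟨a, ha, rfl⟩ := h.surj x (e ▸ (Commute.refl x).mul_right (Commute.refl x))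
  exact hn a ha (h.eq (ha.mul_left ha) (Commute.refl _) (by rw [h.mul _ _ ha ha, e, h.base]))

/-- An isomorphism given by two homomorphisms with the same kernel. -/
theorem of_homs {P : Type*} [Group P] (α : P →* Γ) (β : P →* G) (z : P)
    (hα : ∀ a, Commute a (α z) ↔ a ∈ α.range) (hβ : ∀ x, Commute x (β z) → x ∈ β.range)
    (hk : ∀ p, α p = 1 ↔ β p = 1) : ∃ F : Γ → G, Emb0 (α z) (β z) F ∧ ∀ p, F (α p) = β p := by
  classical
  have key : ∀ p q, α p = α q → β p = β q := fun p q e => by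
    rw [← mul_inv_eq_one, ← map_inv, ← map_mul, ← hk, map_mul, map_inv, e, mul_inv_cancel]
  let F : Γ → G := fun a => if h : ∃ p, α p = a then β h.choose else 1
  have hF : ∀ p, F (α p) = β p := fun p => by
    have h : ∃ q, α q = α p := ⟨p, rfl⟩
    simp only [F, dif_pos h]
    exact key _ _ h.choose_spec
  refine ⟨F, ⟨fun a b ha hb => ?_, fun a ha e => ?_, fun x hx => ?_, hF z⟩, hF⟩
  · obtain ⟨p, rfl⟩ := (hα a).mp ha
    obtain ⟨q, rfl⟩ := (hα b).mp hb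
    rw [← map_mul, hF, hF, hF, map_mul]
  · obtain ⟨p, rfl⟩ := (hα a).mp ha
    rw [hF] at e
    exact (hk p).mpr e
  · obtain ⟨p, rfl⟩ := hβ x hx
    exact ⟨α p, (hα _).mpr ⟨p, rfl⟩, hF p⟩

end Emb0

/-- The identification respects the classes of `τ` and `d`. -/
structure Emb (τ : Γ) (d : G) (y' : Γ) (y : G) (F : Γ → G) : Prop extends Emb0 y' y F where
  conj : ∀ a, Commute a y' → (IsConj τ a ↔ IsConj d (F a))

theorem Emb.move {τ y' : Γ} {d y : G} {F : Γ → G} (h : Emb τ d y' y F) (γ : Γ) (g : G) :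
    Emb τ d (γ⁻¹ * y' * γ) (g⁻¹ * y * g) fun a => g⁻¹ * F (γ * a * γ⁻¹) * g := by
  refine ⟨h.toEmb0.move γ g, fun a ha => ?_⟩
  have := commute_cj ha γ⁻¹
  rw [inv_inv, show γ * (γ⁻¹ * y' * γ) * γ⁻¹ = y' by group] at this
  have h1 := h.conj _ this
  have h2 : IsConj a (γ * a * γ⁻¹) := isConj_iff.mpr ⟨γ, rfl⟩
  exact ⟨fun e => (h1.mp (e.trans h2)).trans (isConj_cj _ g),
    fun e => (h1.mpr (e.trans (isConj_cj _ g).symm)).trans h2.symm⟩

theorem Emb.exists {τ : Γ} {d : G} {F : Γ → G} (h : Emb τ d τ d F) {y' : Γ} {y : G}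
    (h1 : IsConj τ y') (h2 : IsConj d y) : ∃ F', Emb τ d y' y F' := by
  obtain ⟨γ, rfl⟩ := IsConj.exists_cj h1
  obtain ⟨g, rfl⟩ := IsConj.exists_cj h2
  exact ⟨_, h.move γ g⟩

/-- A tuple in the centraliser of its first entry is carried to the model. -/
theorem Emb.pull {τ y' : Γ} {d y : G} {F : Γ → G} (h : Emb τ d y' y F) {k : ℕ}
    {R N : List (List ℕ)} {xs : ℕ → G} (hx : Tup d k R N xs) (h0 : xs 0 = y)
    (hc : ∀ j < k, Commute (xs j) y) (hk : 0 < k)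
    (hl : ((R ++ N).all fun w => w.all fun l => Nat.blt l k) = true) :
    ∃ ys, Tup τ k R N ys ∧ ys 0 = y' ∧ ∀ j < k, Commute (ys j) y' ∧ F (ys j) = xs j := by
  classical
  have h1 : ∀ j, ∃ a, j < k → Commute a y' ∧ F a = xs j := fun j => by
    by_cases hj : j < k
    · obtain ⟨a, ha⟩ := h.surj _ (hc j hj)
      exact ⟨a, fun _ => ha⟩
    · exact ⟨1, fun e => absurd e hj⟩
  choose ys hy using h1
  simp only [List.all_eq_true, Nat.blt_eq, List.mem_append] at hl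
  have h2 : ∀ w, (∀ l ∈ w, l < k) → Commute (evL ys w) y' ∧ F (evL ys w) = evL xs w := fun w hw => by
    obtain ⟨a, b⟩ := h.evL (xs := ys) (w := w) fun l hl => (hy l (hw l hl)).1
    exact ⟨a, b.trans (evL_congr fun l hl => (hy l (hw l hl)).2)⟩
  refine ⟨ys, ⟨fun j hj => (h.conj _ (hy j hj).1).mpr ((hy j hj).2 ▸ hx.cj j hj), fun w hw => ?_,
    fun w hw e => hx.ne w hw ?_⟩, h.eq (hy 0 hk).1 (Commute.refl _) ?_, hy⟩
  · obtain ⟨a, b⟩ := h2 w (hl w (Or.inl hw))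
    exact h.inj _ a (b.trans (hx.rel w hw))
  · rw [← (h2 w (hl w (Or.inr hw))).2, e, h.one]
  · rw [(hy 0 hk).2, h0, h.base]

/-- After conjugating in the model the tuple has a prescribed form. -/
theorem Emb.norm {τ y' : Γ} {d y : G} {F : Γ → G} (h : Emb τ d y' y F) {g : Γ} (hg : Commute g y') :
    ∃ F', Emb τ d y' y F' ∧ ∀ a, F' (g⁻¹ * a * g) = F a := by
  have := h.move g 1
  rw [cj_of_commute hg, cj_of_commute (Commute.one_left y)] at this
  refine ⟨_, this, fun a => ?_⟩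
  show (1 : G)⁻¹ * F (g * (g⁻¹ * a * g) * g⁻¹) * 1 = _
  rw [show g * (g⁻¹ * a * g) * g⁻¹ = a by group]; group

/-- The involutions commuting with `τ`. -/
def LC (τ e : Γ) : Prop := ∀ x, Commute x τ → x * x = 1 → x = 1 ∨ x = τ ∨
  (∃ h, Commute h τ ∧ h⁻¹ * e * h = x) ∨ (∃ h, Commute h τ ∧ h⁻¹ * (e * τ) * h = x) ∨
  ∃ y, Commute y τ ∧ y * y = x

section
variable {τ e f : Γ} {d : G} {F : Γ → G}

theorem Emb0.classes (h : Emb0 τ d F) (hL : LC τ e) (hd : d * d = 1) (hn : ∀ y, y * y ≠ d) {x : Γ}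
    (hx : Commute x τ) (hc : IsConj d (F x)) : x = τ ∨ (∃ k, Commute k τ ∧ k⁻¹ * e * k = x) ∨
      ∃ k, Commute k τ ∧ k⁻¹ * (e * τ) * k = x := by
  rcases hL x hx (h.inj _ (hx.mul_left hx) (by rw [h.mul _ _ hx hx]; exact sq_of_isConj hd hc))
    with h1 | h1 | h1 | h1 | ⟨y, h1, h2⟩
  · exact absurd (by rw [one_mul, ← h.one, ← h1]) (not_sq_of_cj hn hc 1)
  · exact Or.inl h1
  · exact Or.inr (Or.inl h1)
  · exact Or.inr (Or.inr h1)
  · exact absurd (by rw [← h.mul _ _ h1 h1, h2]) (not_sq_of_cj hn hc (F y))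

theorem Emb0.fuse (h : Emb0 τ d F) (hL : LC τ e) (he : Commute e τ) (hd : d * d = 1)
    (hn : ∀ y, y * y ≠ d) {u : G} (h1 : IsConj d u) (h2 : Commute u d) (h3 : u ≠ d) :
    (∃ k, Commute k d ∧ k⁻¹ * F e * k = u) ∨ ∃ k, Commute k d ∧ k⁻¹ * (F e * d) * k = u := by
  obtain ⟨x, hx, rfl⟩ := h.surj u h2
  rcases h.classes hL hd hn hx h1 with h4 | ⟨k, h4, rfl⟩ | ⟨k, h4, rfl⟩
  · exact absurd (h4 ▸ h.base) h3
  · exact Or.inl ⟨_, h.mem h4, (h.cj he h4).symm⟩
  · refine Or.inr ⟨_, h.mem h4, ?_⟩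
    rw [h.cj (he.mul_left (Commute.refl _)) h4, h.mul _ _ he (Commute.refl _), h.base]

theorem Emb0.emb (h : Emb0 τ d F) (hL : LC τ e) (he : Commute e τ) (hc : IsConj τ e)
    (hd : d * d = 1) (hn : ∀ y, y * y ≠ d)
    (hp : ∀ a, IsConj τ a → Commute a τ → a ≠ τ → ∃ k, Commute k τ ∧ k⁻¹ * e * k = a)
    (h1 : IsConj d (F e)) (h2 : ¬ IsConj d (F e * d)) : Emb τ d τ d F := by
  refine ⟨h, fun a ha => ⟨fun h3 => ?_, fun h3 => ?_⟩⟩
  · by_cases h4 : a = τ
    · rw [h4, h.base]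
    · obtain ⟨k, h5, rfl⟩ := hp a h3 ha h4
      rw [h.cj he h5]
      exact h1.trans (isConj_cj _ _)
  · rcases h.classes hL hd hn ha h3 with h4 | ⟨k, h4, rfl⟩ | ⟨k, h4, rfl⟩
    · rw [h4]
    · exact hc.trans (isConj_cj _ _)
    · rw [h.cj (he.mul_left (Commute.refl _)) h4, h.mul _ _ he (Commute.refl _), h.base] at h3
      exact absurd (h3.trans (isConj_cj _ _).symm) h2

/-- The two lifts of a transposition are not both conjugate to the central involution. -/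
theorem Emb0.not_both (h : Emb0 τ d F) (hL : LC τ e) (Q : FF τ e f) (hn : ∀ y, y * y ≠ d)
    (hf : ∃ k, Commute k τ ∧ k⁻¹ * e * k = f) (n1 : f ≠ τ) (n2 : f ≠ e) (n3 : f ≠ e * τ)
    (r1 : ∃ y, Commute y τ ∧ y * y = f * e) (r2 : ∃ y, Commute y τ ∧ y * y = f * τ * e)
    (h1 : IsConj d (F e)) (h2 : IsConj d (F e * d)) : False := by
  have tt := Commute.refl τ
  have hd : d * d = 1 := by rw [← h.base, ← h.mul _ _ tt tt, Q.sq, h.one]
  obtain ⟨E, hE⟩ : ∃ E, E = F e := ⟨_, rfl⟩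
  have cE : Commute E d := hE ▸ h.mem Q.te
  have E2 : E * E = 1 := hE ▸ sq_of_isConj hd h1
  have Ed : E ≠ d := fun e1 => Q.ne1 (h.eq Q.te tt (by rw [← hE, e1, h.base]))
  have E1 : E ≠ 1 := fun e1 => hn 1 (by
    rw [← hE, e1, isConj_one_left] at h1; rw [h1, one_mul])
  rw [← hE] at h1 h2
  have key : ∀ u, IsConj d u → Commute u d → u ≠ d →
      ∃ g, g⁻¹ * d * g = u ∧ (g⁻¹ * E * g = d ∨ g⁻¹ * (E * d) * g = d) := by
    intro u a1 a2 a3
    obtain ⟨g, rfl⟩ := IsConj.exists_cj a1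
    have a4 := commute_cj a2 g⁻¹
    rw [show g⁻¹⁻¹ * (g⁻¹ * d * g) * g⁻¹ = d by group] at a4
    have a5 : g⁻¹⁻¹ * d * g⁻¹ ≠ d := fun e1 => a3 (by
      conv_lhs => rw [← e1]
      group)
    rcases h.fuse hL Q.te hd hn (isConj_cj d g⁻¹) a4.symm a5 with ⟨k, b1, b2⟩ | ⟨k, b1, b2⟩
    · refine ⟨k * g, by
        rw [show (k * g)⁻¹ * d * (k * g) = g⁻¹ * (k⁻¹ * d * k) * g by group, cj_of_commute b1], Or.inl ?_⟩
      rw [show (k * g)⁻¹ * E * (k * g) = g⁻¹ * (k⁻¹ * E * k) * g by group, hE, b2]; group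
    · refine ⟨k * g, by
        rw [show (k * g)⁻¹ * d * (k * g) = g⁻¹ * (k⁻¹ * d * k) * g by group, cj_of_commute b1], Or.inr ?_⟩
      rw [show (k * g)⁻¹ * (E * d) * (k * g) = g⁻¹ * (k⁻¹ * (E * d) * k) * g by group, hE, b2]; group
  have mulc : ∀ g x y : G, g⁻¹ * (x * y) * g = (g⁻¹ * x * g) * (g⁻¹ * y * g) := fun g x y => by group
  have eE : E = E * d * d := by rw [mul_assoc, hd, mul_one]
  have ed : d = E * (E * d) := by rw [← mul_assoc, E2, one_mul]
  obtain ⟨ρ, p1, p2⟩ : ∃ ρ, ρ⁻¹ * d * ρ = E ∧ ρ⁻¹ * E * ρ = E * d := by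
    obtain ⟨g, a1, a2 | a2⟩ := key E h1 cE Ed
    · obtain ⟨k, b1, b2 | b2⟩ := key (E * d) h2 (cE.mul_left (Commute.refl d))
        (fun e1 => E1 (mul_eq_right.mp e1))
      · refine ⟨k⁻¹, ?_, ?_⟩
        · rw [← b2]; group
        · have : k⁻¹ * (E * d) * k = E := by
            rw [mulc, b1, b2, ← mul_assoc, ← cE.eq, ← eE]
          conv_lhs => rw [← this]
          group
      · have b3 : k⁻¹ * E * k = E := by
          conv_lhs => rw [eE]
          rw [mulc, b1, b2, ← mul_assoc, ← cE.eq, ← eE]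
        refine ⟨g * k, ?_, ?_⟩
        · rw [show (g * k)⁻¹ * d * (g * k) = k⁻¹ * (g⁻¹ * d * g) * k by group, a1, b3]
        · rw [show (g * k)⁻¹ * E * (g * k) = k⁻¹ * (g⁻¹ * E * g) * k by group, a2, b1]
    · refine ⟨g, a1, ?_⟩
      conv_lhs => rw [eE]
      rw [mulc, a1, a2, cE.eq]
  have p3 : ρ⁻¹ * (E * d) * ρ = d := by rw [mulc, p1, p2, mul_assoc, ← cE.eq, ← ed]
  have cf1 : Commute (F f) d := h.mem Q.tf
  have cf2 : Commute (F f) E := hE ▸ (h.comm Q.tf Q.te).mpr Q.ef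
  obtain ⟨k0, k1, k2⟩ := hf
  have df : IsConj d (F f) := by rw [← k2, h.cj Q.te k1, ← hE]; exact h1.trans (isConj_cj _ _)
  have df' : IsConj d (F f * d) := by
    rw [← k2, h.cj Q.te k1, ← hE]
    conv_rhs => rw [← cj_of_commute (h.mem k1)]
    rw [← mulc]
    exact h2.trans (isConj_cj _ _)
  obtain ⟨x, x1, x2⟩ := h.surj (ρ⁻¹ * F f * ρ) (p3 ▸ commute_cj (cf2.mul_right cf1) ρ)
  have x3 : Commute x e := (h.comm x1 Q.te).mp (by rw [x2, ← hE, ← p1]; exact commute_cj cf1 ρ)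
  have x4 : IsConj d (F (x * e)) := by
    rw [h.mul _ _ x1 Q.te, x2, ← hE, ← p1, ← mulc]
    exact df'.trans (isConj_cj _ _)
  have cancel : ∀ a b : G, ρ⁻¹ * a * ρ = ρ⁻¹ * b * ρ → a = b := fun a b e1 =>
    mul_left_cancel (mul_right_cancel e1)
  have m1 : x ≠ τ := fun e1 => n3 (h.eq Q.tf (Q.te.mul_left tt) (cancel _ _ (by
    rw [← x2, e1, h.base, h.mul _ _ Q.te tt, ← hE, h.base, p3])))
  have m2 : x ≠ e := fun e1 => n1 (h.eq Q.tf tt (cancel _ _ (by rw [← x2, e1, h.base, ← hE, p1])))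
  have m3 : x ≠ e * τ := fun e1 => n2 (h.eq Q.tf Q.te (cancel _ _ (by
    rw [← x2, e1, h.mul _ _ Q.te tt, h.base, ← hE, p2])))
  have m4 : x ≠ 1 := fun e1 => hn 1 (by
    have := df.trans (isConj_cj _ ρ)
    rw [← x2, e1, h.one, isConj_one_left] at this
    rw [this, one_mul])
  have fin : ∀ k w : Γ, Commute k τ → (∃ y, Commute y τ ∧ y * y = w) → k⁻¹ * (x * e) * k = w →
      False := by
    rintro k _ a1 ⟨y, a2, rfl⟩ a3
    refine not_sq_of_cj hn (x4.trans (isConj_cj _ (F k))) (F y) ?_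
    rw [← h.cj (x1.mul_left Q.te) a1, a3, h.mul _ _ a2 a2]
  rcases h.classes hL hd hn x1 (x2 ▸ df.trans (isConj_cj _ ρ)) with h4 | ⟨k, h4, h5⟩ | ⟨k, h4, h5⟩
  · exact m1 h4
  · obtain ⟨g, g1, g2, g3⟩ := Q.triple x (h5 ▸ Q.ce.trans (isConj_cj _ _)) x1 x3 m1 m2
    exact fin g _ g1 r1 (by
      rw [show g⁻¹ * (x * e) * g = (g⁻¹ * x * g) * (g⁻¹ * e * g) by group, g3, cj_of_commute g2])
  · have h6 : k⁻¹ * e * k = x * τ := by
      rw [← h5, show k⁻¹ * (e * τ) * k = (k⁻¹ * e * k) * (k⁻¹ * τ * k) by group, cj_of_commute h4,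
        mul_assoc _ τ τ, Q.sq, mul_one]
    obtain ⟨g, g1, g2, g3⟩ := Q.triple (x * τ) (h6 ▸ Q.ce.trans (isConj_cj _ _)) (x1.mul_left tt)
      (x3.mul_left Q.te.symm) (fun e1 => m4 (mul_eq_right.mp e1))
      (fun e1 => m3 (by rw [← e1, mul_assoc, Q.sq, mul_one]))
    refine fin g _ g1 r2 ?_
    rw [show g⁻¹ * (x * e) * g = (g⁻¹ * (x * τ) * g) * (g⁻¹ * τ⁻¹ * g) * (g⁻¹ * e * g) by group, g3,
      cj_of_commute g2, inv_eq_of_mul_eq_one_right Q.sq, cj_of_commute g1]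

end

/-! ### Double covers -/

/-- `π` is onto with kernel generated by the central element `d` of order at most two. -/
structure DC {C Q : Type*} [Group C] [Group Q] (π : C →* Q) (d : C) : Prop where
  surj : Function.Surjective π
  sq : d * d = 1
  cen : ∀ x, Commute x d
  ker : ∀ x, π x = 1 → x = 1 ∨ x = d
  map : π d = 1

/-- Simultaneously conjugate pairs. -/
def Pr (t0 t1 u v : Γ) : Prop := ∃ h, h⁻¹ * t0 * h = u ∧ h⁻¹ * t1 * h = v

namespace DC

variable {C Q : Type*} [Group C] [Group Q] {π : C →* Q} {d : C}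

theorem eq (h : DC π d) {x y : C} (e : π x = π y) : x = y ∨ x = y * d := by
  rcases h.ker (y⁻¹ * x) (by rw [map_mul, map_inv, e, inv_mul_cancel]) with h1 | h1
  · exact Or.inl (inv_mul_eq_one.mp h1).symm
  · exact Or.inr (by rw [← h1]; group)

theorem sq_eq (h : DC π d) {x y : C} (e : π x = π y) : x * x = y * y := by
  rcases h.eq e with h1 | h1
  · rw [h1]
  · rw [h1, mul_assoc, ← mul_assoc d, ← (h.cen y).eq, mul_assoc, h.sq, mul_one]

theorem comm_eq (h : DC π d) {x x' y y' : C} (e : π x = π x') (e' : π y = π y') :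
    ⁅x, y⁆ = ⁅x', y'⁆ := by
  have k1 : ∀ a b : C, ⁅a * d, b⁆ = ⁅a, b⁆ := fun a b => by
    rw [commutatorElement_def, commutatorElement_def, mul_assoc a, ← (h.cen b).eq]; group
  have k2 : ∀ a b : C, ⁅a, b * d⁆ = ⁅a, b⁆ := fun a b => by
    rw [← commutatorElement_inv, k1, commutatorElement_inv]
  rcases h.eq e with h1 | h1 <;> rcases h.eq e' with h2 | h2 <;> simp only [h1, h2, k1, k2]

theorem prod_sq (h : DC π d) {P : Q → Q → Prop} (hP : ∀ x y, P (π x) (π y) → Commute x y) {c : C} :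
    ∀ us : List Q, us.Pairwise P → (∀ x, π x ∈ us → x * x = c) →
      ∀ y, π y = us.prod → y * y = c ^ us.length ∧ ∀ x, (∀ u ∈ us, P (π x) u) → Commute x y := by
  intro us
  induction us with
  | nil =>
    intro _ _ y hy
    rcases h.ker y hy with h1 | h1
    · rw [h1]; exact ⟨by simp, fun x _ => Commute.one_right x⟩
    · rw [h1]; exact ⟨by simp [h.sq], fun x _ => h.cen x⟩
  | cons u us ih =>
    intro h1 h2 y hy
    obtain ⟨x, rfl⟩ := h.surj u
    rw [List.pairwise_cons] at h1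
    obtain ⟨a1, a2⟩ := ih h1.2 (fun x hx => h2 x (by simp [hx])) (x⁻¹ * y) (by
      rw [map_mul, map_inv, hy, List.prod_cons, inv_mul_cancel_left])
    have a3 := a2 x h1.1
    have a4 : y = x * (x⁻¹ * y) := by group
    refine ⟨?_, fun z hz => ?_⟩
    · rw [a4, mul_assoc, ← mul_assoc (x⁻¹ * y), ← a3.eq, mul_assoc, a1, ← mul_assoc,
        h2 x (by simp), List.length_cons, pow_succ']
    · rw [a4]
      exact (hP _ _ (hz _ (by simp))).mul_right (a2 z fun u hu => hz u (by simp [hu]))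

/-- Lifts of the class are involutions, and lifts of commuting pairs commute. -/
theorem lifts (h : DC π d) {t0 t1 p : Q} (h0 : t0 * t0 = 1) (h01 : Commute t0 t1)
    {us : List Q} (ho : Odd us.length) (hu : us.prod = 1) (hp : ∀ u ∈ us, Pr t0 t1 p u)
    (hc : ∀ u ∈ us, IsConj t0 u) (hw : us.Pairwise (Pr t0 t1)) :
    (∀ x y, Pr t0 t1 (π x) (π y) → Commute x y) ∧ ∀ x, IsConj t0 (π x) → x * x = 1 := by
  obtain ⟨a, rfl⟩ := h.surj t0
  obtain ⟨b, rfl⟩ := h.surj t1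
  have cen : ∀ z, π z = 1 → z * z = 1 ∧ ∀ x, Commute x z := fun z hz => by
    rcases h.ker z hz with h1 | h1
    · rw [h1]; exact ⟨one_mul 1, Commute.one_right⟩
    · rw [h1]; exact ⟨h.sq, h.cen⟩
  have odd : ∀ z : C, z * z = 1 → z ^ us.length = z := fun z hz => by
    obtain ⟨k, hk⟩ := ho
    rw [hk, pow_succ, pow_mul, pow_two, hz, one_pow, one_mul]
  obtain ⟨δ1, δ2⟩ := cen ⁅a, b⁆ (by rw [map_commutatorElement]; exact h01.commutator_eq)
  have k1 : ∀ x y, Pr (π a) (π b) (π x) (π y) → ⁅x, y⁆ = ⁅a, b⁆ := by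
    rintro x y ⟨g, e1, e2⟩
    obtain ⟨g, rfl⟩ := h.surj g
    rw [h.comm_eq (x' := g⁻¹ * a * g) (y' := g⁻¹ * b * g) (by simp [e1]) (by simp [e2]),
      ← cj_of_commute (δ2 g), commutatorElement_def, commutatorElement_def]
    group
  obtain ⟨x, rfl⟩ := h.surj p
  have k2 : ∀ l : List Q, (∀ u ∈ l, Pr (π a) (π b) (π x) u) → ∀ y, π y = l.prod →
      ⁅x, y⁆ = ⁅a, b⁆ ^ l.length := by
    intro l
    induction l with
    | nil => intro _ y hy; exact ((cen y hy).2 x).commutator_eq.trans (pow_zero _).symm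
    | cons u l ih =>
      intro hl y hy
      obtain ⟨z, rfl⟩ := h.surj u
      have a1 := ih (fun u hu => hl u (by simp [hu])) (z⁻¹ * y) (by
        rw [map_mul, map_inv, hy, List.prod_cons, inv_mul_cancel_left])
      rw [List.length_cons, pow_succ', ← cj_of_commute ((δ2 z⁻¹).pow_right l.length), ← a1,
        ← k1 x z (hl _ (by simp)), commutatorElement_def, commutatorElement_def,
        commutatorElement_def]
      group
  have k3 : ⁅a, b⁆ = 1 := by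
    rw [← odd _ δ1, ← k2 us hp 1 (by rw [map_one, hu])]; simp
  have k4 : ∀ x y, Pr (π a) (π b) (π x) (π y) → Commute x y := fun x y hxy =>
    commutatorElement_eq_one_iff_commute.mp ((k1 x y hxy).trans k3)
  obtain ⟨ε1, ε2⟩ := cen (a * a) (by rw [map_mul, h0])
  have k5 : ∀ x, IsConj (π a) (π x) → x * x = a * a := fun x hx => by
    obtain ⟨g, e1⟩ := IsConj.exists_cj hx
    obtain ⟨g, rfl⟩ := h.surj g
    rw [h.sq_eq (y := g⁻¹ * a * g) (by simp [e1]), ← cj_of_commute (ε2 g)]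
    group
  have k6 := (h.prod_sq k4 us hw (fun x hx => k5 x (hc _ hx)) 1 (by rw [map_one, hu])).1
  rw [odd _ ε1, one_mul] at k6
  exact ⟨k4, fun x hx => (k5 x hx).trans k6.symm⟩

/-- A lift whose product with a given element has order dividing three. -/
theorem lift3 (h : DC π d) (x : C) {q : Q} (e : (π x * q) ^ 3 = 1) :
    ∃ y, π y = q ∧ (x * y) ^ 3 = 1 := by
  obtain ⟨y, rfl⟩ := h.surj q
  rcases h.ker ((x * y) ^ 3) (by rw [map_pow, map_mul, e]) with h1 | h1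
  · exact ⟨y, rfl, h1⟩
  · refine ⟨y * d, by rw [map_mul, h.map, mul_one], ?_⟩
    rw [← mul_assoc, (h.cen _).mul_pow, h1, cube_of_sq h.sq, h.sq]

end DC

end Cfsg.H6
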