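import Cfsg.Agent.H6.HNR.Fis3

/-! Rank three, lifting of tuples to double covers, transfer of relations between two tuples. -/

set_option autoImplicit false

namespace Cfsg.H6

open scoped commutatorElement

universe u v

variable {G : Type v} [Group G] {Γ : Type u} [Group Γ]

/-- The class of `τ` has rank three. -/
structure R3 (τ e b : Γ) : Prop where
  sq : τ * τ = 1
  ce : IsConj τ e
  te : Commute e τ
  ne : e ≠ τ
  b3 : (τ * b) ^ 3 = 1
  nb : ¬ Commute b τ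
  all : ∀ a, IsConj τ a → a = τ ∨ (∃ k, Commute k τ ∧ k⁻¹ * e * k = a) ∨
    ∃ k, Commute k τ ∧ k⁻¹ * b * k = a

namespace R3

variable {τ e b : Γ}

theorem hp (h : R3 τ e b) (a : Γ) (h1 : IsConj τ a) (h2 : Commute a τ) (h3 : a ≠ τ) :
    ∃ k, Commute k τ ∧ k⁻¹ * e * k = a := by
  rcases h.all a h1 with h4 | h4 | ⟨k, h4, rfl⟩
  · exact absurd h4 h3
  · exact h4
  · refine absurd ?_ h.nb
    have := commute_cj h2 k⁻¹
    rwa [cj_of_commute h4.inv_left, show k⁻¹⁻¹ * (k⁻¹ * b * k) * k⁻¹ = b by group] at this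

theorem pr (h : R3 τ e b) {u v : Γ} (hu : IsConj τ u) (hv : IsConj τ v) (hc : Commute u v)
    (hne : u ≠ v) : Pr τ e u v := by
  obtain ⟨g, rfl⟩ := IsConj.exists_cj hu
  have a1 := commute_cj hc g⁻¹
  rw [show g⁻¹⁻¹ * (g⁻¹ * τ * g) * g⁻¹ = τ by group] at a1
  obtain ⟨k, k1, k2⟩ := h.hp _ (hv.trans (isConj_cj v g⁻¹)) a1.symm (fun e1 => hne (by
    rw [← e1]; group))
  refine ⟨k * g, ?_, ?_⟩
  · rw [show (k * g)⁻¹ * τ * (k * g) = g⁻¹ * (k⁻¹ * τ * k) * g by group, cj_of_commute k1]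
  · rw [show (k * g)⁻¹ * e * (k * g) = g⁻¹ * (k⁻¹ * e * k) * g by group, k2]; group

theorem pair (h : R3 τ e b) (u v : Γ) (hu : IsConj τ u) (hv : IsConj τ v) (hc : Commute u v)
    (hne : u ≠ v) : IsConj (τ * e) (u * v) := by
  obtain ⟨g, rfl, rfl⟩ := h.pr hu hv hc hne
  rw [show g⁻¹ * τ * g * (g⁻¹ * e * g) = g⁻¹ * (τ * e) * g by group]
  exact isConj_cj _ _

theorem three (h : R3 τ e b) (u v : Γ) (hu : IsConj τ u) (hv : IsConj τ v) :
    Commute u v ∨ (u * v) ^ 3 = 1 := by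
  obtain ⟨g, rfl⟩ := IsConj.exists_cj hu
  have a1 : v = g⁻¹ * (g⁻¹⁻¹ * v * g⁻¹) * g := by group
  rcases h.all _ (hv.trans (isConj_cj v g⁻¹)) with h1 | ⟨k, h1, h2⟩ | ⟨k, h1, h2⟩
  · rw [a1, h1]; exact Or.inl (Commute.refl _)
  · rw [a1, ← h2]
    refine Or.inl (commute_cj ?_ g)
    conv_lhs => rw [← cj_of_commute h1]
    exact commute_cj h.te.symm k
  · rw [a1, ← h2]
    right
    conv_lhs => rw [← cj_of_commute h1]
    rw [show g⁻¹ * (k⁻¹ * τ * k) * g * (g⁻¹ * (k⁻¹ * b * k) * g) = (k * g)⁻¹ * (τ * b) * (k * g)⁻¹⁻¹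
      by group, conj_pow, h.b3]
    group

end R3

section
variable {φ : Γ →* Equiv.Perm ℕ} {ev : ℕ → Γ} {img : ℕ → ℕ → ℕ} {n m inv : ℕ} {bs tw : List ℕ}

theorem nbeq_iff {a b : ℕ} : (!Nat.beq a b) = true ↔ a ≠ b := by
  rw [Bool.not_eq_true', ← Bool.not_eq_true, Nat.beq_eq]

theorem TM.at0 : At φ (evL ev tw) (evL ev tw) 0 := ⟨1, by simp, by simp⟩

theorem TM.pos (T : TM φ ev img n m inv bs tw) : 0 < n := by simpa using T.lt 1

theorem TM.commW (T : TM φ ev img n m inv bs tw) {x : Γ} {p : ℕ} (h : At φ (evL ev tw) x p)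
    {w : List ℕ} (hw : inR m w = true) : Commute (evL ev w) x ↔ trF img w p = p := by
  rw [T.comm h, (T.act.trF hw (T.at_lt h)).1]

theorem TM.ne (T : TM φ ev img n m inv bs tw) {x y : Γ} {p q : ℕ} (h : At φ (evL ev tw) x p)
    (h' : At φ (evL ev tw) y q) (e : p ≠ q) : x ≠ y := by
  rintro rfl
  obtain ⟨g, e1, rfl⟩ := h
  obtain ⟨k, e2, rfl⟩ := h'
  apply e
  have h1 := (T.cent (k * g⁻¹)).mpr (commute_of_cj (by
    rw [show (k * g⁻¹)⁻¹ * evL ev tw * (k * g⁻¹) = g * (k⁻¹ * evL ev tw * k) * g⁻¹ by group, ← e2, e1]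
    group))
  rw [map_mul, mul_inv_rev, map_inv, inv_inv, Equiv.Perm.mul_apply, ← Equiv.Perm.eq_inv_iff_eq] at h1
  exact h1.symm

theorem TM.r3 (T : TM φ ev img n m inv bs tw) {H : Subgroup Γ} {I : List Ivl}
    (hp : Prim φ ev H n I) {e b : Std}
    (h : (stdChk img m inv bs tw e && stdChk img m inv bs tw b &&
      (I.all fun iv => (Nat.ble iv.1 e.1 && Nat.blt e.1 iv.2.1) ||
        (Nat.ble iv.1 b.1 && Nat.blt b.1 iv.2.1)) &&
      Nat.beq (trF img e.2.2 0) 0 && !Nat.beq e.1 0 && fixB img m bs (rp 3 (tw ++ b.2.2)) &&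
      !Nat.beq (trF img b.2.2 0) 0) = true) : R3 (evL ev tw) (evL ev e.2.2) (evL ev b.2.2) := by
  simp only [Bool.and_eq_true, List.all_eq_true, Bool.or_eq_true, Nat.ble_eq, Nat.blt_eq,
    Nat.beq_eq, nbeq_iff] at h
  obtain ⟨⟨⟨⟨⟨⟨h1, h2⟩, h3⟩, h4⟩, h5⟩, h6⟩, h7⟩ := h
  obtain ⟨e1, e2⟩ := T.std h1
  obtain ⟨b1, b2⟩ := T.std h2
  refine ⟨T.sq, e2.isConj, (T.commW TM.at0 e1).mpr h4, T.ne e2 TM.at0 h5, ?_,
    fun c => h7 ((T.commW TM.at0 b1).mp c), fun a ha => ?_⟩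
  · rw [← evL_append, ← evL_rp]; exact T.ora _ h6
  obtain ⟨p, hp'⟩ := exists_at (φ := φ) ha
  by_cases h0 : p = 0
  · exact Or.inl (T.unique hp' (h0 ▸ TM.at0))
  obtain ⟨iv, i1, i2, i3⟩ := hp.cov p (by omega) (T.at_lt hp')
  have key : ∀ (x : Γ) (q : ℕ), At φ (evL ev tw) x q → iv.1 ≤ q → q < iv.2.1 →
      ∃ k, Commute k (evL ev tw) ∧ k⁻¹ * x * k = a := by
    intro x q hx q1 q2
    have o1 : p ∈ orb φ H iv.1 := by rw [hp.sub iv i1]; exact ⟨i2, i3⟩
    have o2 : q ∈ orb φ H iv.1 := by rw [hp.sub iv i1]; exact ⟨q1, q2⟩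
    obtain ⟨g, g1, g2⟩ := o1
    obtain ⟨k, k1, k2⟩ := o2
    have m1 : k⁻¹ * g ∈ H := H.mul_mem (H.inv_mem k1) g1
    rw [hp.stab, mem_fixS'] at m1
    refine ⟨k⁻¹ * g, (T.cent _).mp (m1 0 (by simp)), T.unique ?_ hp'⟩
    have := hx.conj (k⁻¹ * g)
    rwa [map_mul, mul_inv_rev (φ k⁻¹), map_inv, inv_inv, ← k2, ← Equiv.Perm.mul_apply,
      mul_inv_cancel_right, g2] at this
  rcases h3 iv i1 with ⟨q1, q2⟩ | ⟨q1, q2⟩
  · exact Or.inr (Or.inl (key _ _ e2 q1 q2))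
  · exact Or.inr (Or.inr (key _ _ b2 q1 q2))

theorem evS_sW {S : List Std} {j : ℕ} (hj : j < S.length) : evS ev (sW S) j = evL ev S[j].2.2 := by
  rw [evS, sW, List.getD_eq_getElem _ _ (by simpa using hj), List.getElem_map]

theorem TM.two (T : TM φ ev img n m inv bs tw) {e b : Γ} (h3 : R3 (evL ev tw) e b) {S : List Std}
    {k : ℕ} {R N : List (List ℕ)} (hS : S.all (stdChk img m inv bs tw) = true)
    (h : (Nat.blt 1 k && Nat.blt 1 S.length && R.elem [0, 1, 0, 1] && N.elem [0, 1] &&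
      Nat.beq (trF img (S.getD 0 (0, [], [])).2.2 (S.getD 1 (0, [], [])).1) (S.getD 1 (0, [], [])).1 &&
      !Nat.beq (S.getD 0 (0, [], [])).1 (S.getD 1 (0, [], [])).1) = true) : Rig ev tw S k R N 2 := by
  simp only [Bool.and_eq_true, Nat.blt_eq, Nat.beq_eq, nbeq_iff] at h
  obtain ⟨⟨⟨⟨⟨h1, h2⟩, h4⟩, h5⟩, h6⟩, h7⟩ := h
  rw [List.getD_eq_getElem _ _ h2, List.getD_eq_getElem _ _ (by omega : 0 < S.length)] at h6 h7
  obtain ⟨a1, a2⟩ := T.std (List.all_eq_true.mp hS _ (List.getElem_mem (by omega : 0 < S.length)))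
  obtain ⟨_, b2⟩ := T.std (List.all_eq_true.mp hS _ (List.getElem_mem h2))
  obtain ⟨g, g1, g2⟩ := h3.pr a2.isConj b2.isConj ((T.commW b2 a1).mpr h6) (T.ne a2 b2 h7)
  intro xs hx
  have c0 := hx.cj 0 (by omega)
  have c1 := hx.cj 1 h1
  obtain ⟨q, q1, q2⟩ := h3.pr c0 c1 (by
    rw [commute_iff_sq (T.sq_of c0) (T.sq_of c1)]
    simpa [evL] using hx.rel _ (List.mem_of_elem_eq_true h4)) (fun e1 =>
      hx.ne _ (List.mem_of_elem_eq_true h5) (by
        rw [evL_cons, evL_singleton, ← e1]; exact T.sq_of c0))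
  refine ⟨q⁻¹ * g, fun j hj => ?_⟩
  rw [evS_sW (by omega)]
  obtain rfl | rfl : j = 0 ∨ j = 1 := by omega
  · rw [← g1, ← q1]; group
  · rw [← g2, ← q2]; group

end

/-! ### Words -/

theorem exists_word {ev : ℕ → G} {inv : ℕ} (hev : Good ev inv) {X : List (List ℕ)} {x : G}
    (hx : x ∈ gen ev X) : ∃ w, evL ev w = x := by
  induction hx using Subgroup.closure_induction with
  | mem _ h => obtain ⟨w, _, e⟩ := h; exact ⟨w, e⟩
  | one => exact ⟨[], rfl⟩
  | mul _ _ _ _ h1 h2 =>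
    obtain ⟨u, rfl⟩ := h1
    obtain ⟨v, rfl⟩ := h2
    exact ⟨u ++ v, evL_append _ _ _⟩
  | inv _ _ h => obtain ⟨u, rfl⟩ := h; exact ⟨_, evL_invW hev u⟩

theorem evL_reverse {ev : ℕ → G} {w : List ℕ} (h : ∀ l ∈ w, ev l * ev l = 1) :
    evL ev w.reverse = (evL ev w)⁻¹ := by
  induction w with
  | nil => simp [evL]
  | cons x w ih =>
    rw [List.reverse_cons, evL_append, evL_singleton, ih fun l hl => h l (by simp [hl]), evL_cons,
      mul_inv_rev, inv_eq_of_mul_eq_one_right (h x (by simp))]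

theorem exists_word_in {ev : ℕ → G} {A : List ℕ} (hA : ∀ l ∈ A, ev l * ev l = 1) {K : Subgroup G}
    {ev' : ℕ → G} {X : List (List ℕ)} (hK : K = gen ev' X)
    (hX : ∀ u ∈ X, ∃ w, (∀ l ∈ w, l ∈ A) ∧ evL ev w = evL ev' u) {x : G} (hx : x ∈ K) :
    ∃ w, (∀ l ∈ w, l ∈ A) ∧ evL ev w = x := by
  subst hK
  induction hx using Subgroup.closure_induction with
  | mem _ h => obtain ⟨u, hu, rfl⟩ := h; exact hX u hu
  | one => exact ⟨[], by simp, rfl⟩
  | mul _ _ _ _ h1 h2 =>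
    obtain ⟨u, a, rfl⟩ := h1
    obtain ⟨v, b, rfl⟩ := h2
    exact ⟨u ++ v, fun l hl => (List.mem_append.mp hl).elim (a l) (b l), evL_append _ _ _⟩
  | inv _ _ h =>
    obtain ⟨u, a, rfl⟩ := h
    exact ⟨u.reverse, fun l hl => a l (List.mem_reverse.mp hl), evL_reverse fun l hl => hA l (a l hl)⟩

theorem commute_evL {ev : ℕ → G} {z : G} {w : List ℕ} (h : ∀ l ∈ w, Commute (ev l) z) :
    Commute (evL ev w) z := by
  induction w with
  | nil => exact Commute.one_left z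
  | cons x w ih =>
    rw [evL_cons]
    exact (h x (by simp)).mul_left (ih fun l hl => h l (by simp [hl]))

theorem evL_pair (ev : ℕ → Γ) (xs : ℕ → G) (w : List ℕ) :
    evL (fun l => (ev l, xs l)) w = (evL ev w, evL xs w) :=
  Prod.ext (map_evL (MonoidHom.fst Γ G) _ w) (map_evL (MonoidHom.snd Γ G) _ w)

theorem Good.pair {ev : ℕ → Γ} {xs : ℕ → G} {inv : ℕ} (h : Good ev inv) (h' : Good xs inv) :
    Good (fun l => (ev l, xs l)) inv :=
  ⟨Prod.ext h.zero h'.zero, fun l => Prod.ext (h.inv l) (h'.inv l)⟩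

/-- The subgroup generated by two commuting elements of order at most two. -/
def V4 (u v : G) (hu : u * u = 1) (hv : v * v = 1) (h : Commute u v) : Subgroup G where
  carrier := {x | x = 1 ∨ x = u ∨ x = v ∨ x = u * v}
  one_mem' := Or.inl rfl
  mul_mem' := by
    have a1 : u * (u * v) = v := by rw [← mul_assoc, hu, one_mul]
    have a2 : v * (u * v) = u := by rw [h.eq, ← mul_assoc, hv, one_mul]
    have a3 : u * v * u = v := by rw [h.eq, mul_assoc, hu, mul_one]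
    have a4 : u * v * v = u := by rw [mul_assoc, hv, mul_one]
    have a5 : u * v * (u * v) = 1 := sq_mul hu hv h
    rintro _ _ (rfl | rfl | rfl | rfl) (rfl | rfl | rfl | rfl) <;>
      simp [hu, hv, a1, a2, a3, a4, a5, h.eq.symm]
  inv_mem' := by
    rintro _ (rfl | rfl | rfl | rfl)
    · simp
    · simp [inv_eq_of_mul_eq_one_right hu]
    · simp [inv_eq_of_mul_eq_one_right hv]
    · simp only [Set.mem_ofPred_eq, inv_eq_of_mul_eq_one_right (sq_mul hu hv h)]; simp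

variable {Q : Type} [Group Q] {evQ : ℕ → Q} {inv : ℕ} {R : List (List ℕ)}

/-- The letters of `Q` with the relators `R` present `Q`. -/
def Lift (evQ : ℕ → Q) (inv : ℕ) (R : List (List ℕ)) : Prop :=
  ∀ (G' : Type v) [Group G'] (ev' : ℕ → G'), Good ev' inv → Rels ev' R →
    ∃ ψ : Q →* G', ∀ l, ψ (evQ l) = ev' l

/-- Relations of the quotient hold modulo the central subgroup. -/
theorem lift_mod (hl : Lift.{v} evQ inv R) {xs : ℕ → G} (hx : Good xs inv) (N : Subgroup G)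
    (hN : ∀ z ∈ N, (∀ l, Commute (xs l) z) ∧ ∀ y ∈ N, Commute y z) (hR : ∀ r ∈ R, evL xs r ∈ N) :
    ∃ (K : Subgroup G) (hK : ∀ l, xs l ∈ K) (_ : (N.subgroupOf K).Normal)
      (ψ : Q →* K ⧸ N.subgroupOf K), (∀ l, ψ (evQ l) = QuotientGroup.mk' _ (evSub xs K hK l)) ∧
        ∀ k ∈ K, ∃ w, evL xs w = k := by
  have hK : ∀ l, xs l ∈ Subgroup.closure (Set.range xs) := fun l => Subgroup.subset_closure ⟨l, rfl⟩
  have hw : ∀ k ∈ Subgroup.closure (Set.range xs), ∃ w, evL xs w = k := fun k hk => by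
    induction hk using Subgroup.closure_induction with
    | mem _ h => obtain ⟨l, rfl⟩ := h; exact ⟨[l], evL_singleton _ _⟩
    | one => exact ⟨[], rfl⟩
    | mul _ _ _ _ h1 h2 =>
      obtain ⟨u, rfl⟩ := h1
      obtain ⟨v, rfl⟩ := h2
      exact ⟨u ++ v, evL_append _ _ _⟩
    | inv _ _ h => obtain ⟨u, rfl⟩ := h; exact ⟨_, evL_invW hx u⟩
  have hn : (N.subgroupOf (Subgroup.closure (Set.range xs))).Normal := ⟨fun z hz g => by
    obtain ⟨w, e⟩ := hw g g.2
    have := commute_evL (w := w) fun l _ => (hN z hz).1 l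
    rw [Subgroup.mem_subgroupOf, Subgroup.coe_mul, Subgroup.coe_mul, ← e, this.eq,
      Subgroup.coe_inv, ← e, mul_inv_cancel_right]
    exact hz⟩
  obtain ⟨ψ, hψ⟩ := hl _ _ ((hx.evSub hK).map (QuotientGroup.mk' (N.subgroupOf _))) (fun r hr => by
    rw [← map_evL]
    refine (QuotientGroup.eq_one_iff _).mpr ?_
    rw [Subgroup.mem_subgroupOf, coe_evL_evSub]
    exact hR r hr)
  exact ⟨_, hK, hn, ψ, hψ, hw⟩

theorem mem_of_lift (hl : Lift.{v} evQ inv R) {xs : ℕ → G} (hx : Good xs inv) (N : Subgroup G)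
    (hN : ∀ z ∈ N, (∀ l, Commute (xs l) z) ∧ ∀ y ∈ N, Commute y z) (hR : ∀ r ∈ R, evL xs r ∈ N)
    {w : List ℕ} (hw : evL evQ w = 1) : evL xs w ∈ N := by
  obtain ⟨K, hK, _, ψ, hψ, _⟩ := lift_mod hl hx N hN hR
  have h1 := map_evL ψ evQ w
  rw [hw, map_one, funext hψ, ← map_evL, eq_comm] at h1
  have h2 := (QuotientGroup.eq_one_iff _).mp h1
  rwa [Subgroup.mem_subgroupOf, coe_evL_evSub] at h2

/-- Relations of the first tuple hold for the second. -/
theorem transfer [IsSimpleGroup Q] (hl : Lift.{max u v} evQ inv R) {ev : ℕ → Γ} {xs : ℕ → G}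
    (hev : Good ev inv) (hx : Good xs inv) (N : Subgroup (Γ × G))
    (hN : ∀ z ∈ N, (∀ l, Commute (ev l, xs l) z) ∧ ∀ y ∈ N, Commute y z)
    (hR : ∀ r ∈ R, (evL ev r, evL xs r) ∈ N) (h1 : ∀ z ∈ N, z.1 = 1 → z.2 = 1) {i j : ℕ}
    (hij : ¬ Commute (ev i) (ev j)) {w : List ℕ} (hw : evL ev w = 1) : evL xs w = 1 := by
  obtain ⟨K, hK, _, ψ, hψ, hs⟩ := lift_mod hl (hev.pair hx) N hN
    (fun r hr => by rw [evL_pair]; exact hR r hr)
  let M : Subgroup K := ((MonoidHom.fst Γ G).comp K.subtype).ker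
  have hm : (M.map (QuotientGroup.mk' (N.subgroupOf K))).Normal :=
    Subgroup.Normal.map inferInstance _ (QuotientGroup.mk'_surjective _)
  rcases (hm.comap ψ).eq_bot_or_eq_top with e | e
  · have a1 : evL evQ w ∈ (M.map (QuotientGroup.mk' (N.subgroupOf K))).comap ψ := by
      rw [Subgroup.mem_comap, map_evL, funext hψ, ← map_evL]
      refine Subgroup.mem_map_of_mem _ ?_
      rw [MonoidHom.mem_ker, MonoidHom.comp_apply, Subgroup.coe_subtype, coe_evL_evSub, evL_pair]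
      exact hw
    rw [e, Subgroup.mem_bot] at a1
    have a2 := mem_of_lift hl (hev.pair hx) N hN (fun r hr => by rw [evL_pair]; exact hR r hr) a1
    rw [evL_pair] at a2
    exact h1 _ a2 hw
  · exfalso
    have a1 : evQ i ∈ (M.map (QuotientGroup.mk' (N.subgroupOf K))).comap ψ := e ▸ Subgroup.mem_top _
    rw [Subgroup.mem_comap, hψ] at a1
    obtain ⟨k, k1, k2⟩ := a1
    have a2 : k⁻¹ * evSub _ K hK i ∈ N.subgroupOf K := QuotientGroup.eq.mp k2
    have a3 := ((hN _ a2).1 j).map (MonoidHom.fst Γ G)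
    have a4 : (k : Γ × G).1 = 1 := k1
    apply hij
    simpa [evSub, a4] using a3.symm

/-- The same for a central subgroup of order two on both sides. -/
theorem transfer2 [IsSimpleGroup Q] (hl : Lift.{max u v} evQ inv R) {ev : ℕ → Γ} {xs : ℕ → G}
    (hev : Good ev inv) (hx : Good xs inv) {τ : Γ} {d : G} (hτ : τ * τ = 1) (hd : d * d = 1)
    (h1 : τ = 1 → d = 1) (c1 : ∀ l, Commute (ev l) τ) (c2 : ∀ l, Commute (xs l) d)
    (hR : ∀ r ∈ R, (evL ev r = 1 ∧ evL xs r = 1) ∨ (evL ev r = τ ∧ evL xs r = d)) {i j : ℕ}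
    (hij : ¬ Commute (ev i) (ev j)) {w : List ℕ} (hw : evL ev w = 1) : evL xs w = 1 := by
  refine transfer hl hev hx (V4 (τ, d) 1 (Prod.ext hτ hd) (one_mul 1) (Commute.one_right _))
    ?_ (fun r hr => ?_) ?_ hij hw
  · have k : ∀ l, Commute (ev l, xs l) (τ, d) := fun l => Prod.ext (c1 l) (c2 l)
    rintro _ (rfl | rfl | rfl | rfl)
    · exact ⟨fun _ => Commute.one_right _, fun _ _ => Commute.one_right _⟩
    · refine ⟨k, ?_⟩
      rintro _ (rfl | rfl | rfl | rfl) <;> simp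
    · exact ⟨fun _ => Commute.one_right _, fun _ _ => Commute.one_right _⟩
    · rw [mul_one]
      refine ⟨k, ?_⟩
      rintro _ (rfl | rfl | rfl | rfl) <;> simp
  · rcases hR r hr with ⟨a, b⟩ | ⟨a, b⟩
    · exact Or.inl (Prod.ext a b)
    · exact Or.inr (Or.inl (Prod.ext a b))
  · rintro _ (rfl | rfl | rfl | rfl)
    · exact fun _ => rfl
    · exact h1
    · exact fun _ => rfl
    · rw [mul_one]; exact h1

theorem mem_two (hl : Lift.{v} evQ inv R) {xs : ℕ → G} (hx : Good xs inv) {d : G} (hd : d * d = 1)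
    (c2 : ∀ l, Commute (xs l) d) (hR : ∀ r ∈ R, evL xs r = 1 ∨ evL xs r = d)
    {w : List ℕ} (hw : evL evQ w = 1) : evL xs w = 1 ∨ evL xs w = d := by
  have := mem_of_lift hl hx (V4 d 1 hd (one_mul 1) (Commute.one_right _)) (by
    rintro _ (rfl | rfl | rfl | rfl)
    · exact ⟨fun _ => Commute.one_right _, fun _ _ => Commute.one_right _⟩
    · refine ⟨c2, ?_⟩
      rintro _ (rfl | rfl | rfl | rfl) <;> simp
    · exact ⟨fun _ => Commute.one_right _, fun _ _ => Commute.one_right _⟩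
    · rw [mul_one]
      refine ⟨c2, ?_⟩
      rintro _ (rfl | rfl | rfl | rfl) <;> simp) (fun r hr => (hR r hr).elim Or.inl
        fun e => Or.inr (Or.inl e)) hw
  rcases this with e | e | e | e
  · exact Or.inl e
  · exact Or.inr e
  · exact Or.inl e
  · exact Or.inr (e.trans (mul_one d))

/-- The identification of centralisers given by two tuples with the same relations. -/
theorem emb0_of_words {ev : ℕ → Γ} {xs : ℕ → G} (hev : Good ev inv) (hx : Good xs inv)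
    (z : List ℕ) (h1 : ∀ l, Commute (ev l) (evL ev z))
    (h2 : ∀ a, Commute a (evL ev z) → ∃ w, evL ev w = a)
    (h3 : ∀ x, Commute x (evL xs z) → ∃ w, evL xs w = x)
    (hk : ∀ w, evL ev w = 1 ↔ evL xs w = 1) :
    ∃ F, Emb0 (evL ev z) (evL xs z) F ∧ ∀ w, F (evL ev w) = evL xs w := by
  have a1 : ∀ w, FreeGroup.lift ev (evL FreeGroup.of w) = evL ev w := fun w => by
    rw [map_evL]; simp
  have a2 : ∀ w, FreeGroup.lift xs (evL FreeGroup.of w) = evL xs w := fun w => by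
    rw [map_evL]; simp
  have b1 : ∀ p, FreeGroup.lift ev p = evL ev (toL id inv p) := lift_eq_evL hev id
  have b2 : ∀ p, FreeGroup.lift xs p = evL xs (toL id inv p) := lift_eq_evL hx id
  obtain ⟨F, h, e⟩ := Emb0.of_homs (FreeGroup.lift ev) (FreeGroup.lift xs) (evL FreeGroup.of z)
    (fun a => by
      rw [a1]
      refine ⟨fun c => ?_, ?_⟩
      · obtain ⟨w, rfl⟩ := h2 a c
        exact ⟨_, a1 w⟩
      · rintro ⟨p, rfl⟩
        rw [b1]
        exact commute_evL fun l _ => h1 l)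
    (fun x c => by
      rw [a2] at c
      obtain ⟨w, rfl⟩ := h3 x c
      exact ⟨_, a2 w⟩) (fun p => by rw [b1, b2, hk])
  rw [a1, a2] at h
  exact ⟨F, h, fun w => by rw [← a1, e, a2]⟩

theorem Emb0.comp {Γ' : Type*} [Group Γ'] {y'' : Γ'} {y' : Γ} {y : G} {E : Γ' → Γ} {F : Γ → G}
    (h : Emb0 y'' y' E) (h' : Emb0 y' y F) : Emb0 y'' y fun a => F (E a) := by
  refine ⟨fun a b ha hb => ?_, fun a ha e => h.inj a ha (h'.inj _ (h.mem ha) e), fun x hx => ?_, ?_⟩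
  · rw [h.mul a b ha hb, h'.mul _ _ (h.mem ha) (h.mem hb)]
  · obtain ⟨b, hb, rfl⟩ := h'.surj x hx
    obtain ⟨a, ha, rfl⟩ := h.surj b hb
    exact ⟨a, ha, rfl⟩
  · rw [h.base, h'.base]

/-- The involutions of a double cover. -/
theorem cover_classes {ev : ℕ → Γ} (hev : Good ev inv) (hQ : Good evQ inv) {τ : Γ}
    (h1 : ∀ l, Commute (ev l) τ) (h2 : ∀ a, Commute a τ → ∃ w, evL ev w = a ∨ evL ev w * τ = a)
    (hτ : τ * τ = 1) (t1 : ∀ w, evL ev w = 1 → evL evQ w = 1)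
    (t2 : ∀ w, evL evQ w = 1 → evL ev w = 1 ∨ evL ev w = τ) {X : List (List ℕ)}
    (hX : gen evQ X = ⊤) {Reps : List (List ℕ)}
    (hc : ∀ q : Q, q * q = 1 → ∃ w ∈ Reps, IsConj q (evL evQ w)) (x : Γ) (hx : Commute x τ)
    (hx2 : x * x = 1) : ∃ w ∈ Reps, ∃ k, Commute k τ ∧
      (k⁻¹ * evL ev w * k = x ∨ k⁻¹ * (evL ev w * τ) * k = x) := by
  have key : ∀ u, evL ev u * evL ev u = 1 → ∃ w ∈ Reps, ∃ k, Commute k τ ∧
      (k⁻¹ * evL ev w * k = evL ev u ∨ k⁻¹ * (evL ev w * τ) * k = evL ev u) := fun u hu => by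
    obtain ⟨w, hw, e⟩ := hc (evL evQ u) (by rw [← evL_append]; exact t1 _ (by rwa [evL_append]))
    obtain ⟨g, e1⟩ := IsConj.exists_cj e.symm
    obtain ⟨v, rfl⟩ := exists_word hQ (hX ▸ Subgroup.mem_top g)
    have c : Commute (evL ev v) τ := commute_evL fun l _ => h1 l
    refine ⟨w, hw, _, c, ?_⟩
    have := t2 (invW inv v ++ w ++ v ++ invW inv u) (by
      rw [evL_append, evL_append, evL_append, evL_invW hQ, evL_invW hQ, e1, mul_inv_cancel])
    rw [evL_append, evL_append, evL_append, evL_invW hev, evL_invW hev, mul_inv_eq_one,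
      mul_inv_eq_iff_eq_mul] at this
    refine this.imp id fun e2 => ?_
    rw [show (evL ev v)⁻¹ * (evL ev w * τ) * evL ev v =
      (evL ev v)⁻¹ * evL ev w * evL ev v * ((evL ev v)⁻¹ * τ * evL ev v) by group, e2,
      cj_of_commute c, ← (commute_evL (w := u) fun l _ => h1 l).eq, mul_assoc, hτ, mul_one]
  obtain ⟨u, rfl | rfl⟩ := h2 x hx
  · exact key u hx2
  · have c : Commute (evL ev u) τ := commute_evL fun l _ => h1 l
    obtain ⟨w, hw, k, k1, k2⟩ := key u (by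
      rwa [mul_assoc, ← mul_assoc τ, ← c.eq, mul_assoc, hτ, mul_one] at hx2)
    refine ⟨w, hw, k, k1, ?_⟩
    have a : ∀ y, k⁻¹ * (y * τ) * k = k⁻¹ * y * k * τ := fun y => by
      rw [show k⁻¹ * (y * τ) * k = k⁻¹ * y * k * (k⁻¹ * τ * k) by group, cj_of_commute k1]
    rcases k2 with e | e
    · exact Or.inr (by rw [a, e])
    · exact Or.inl (by rw [← e, a, mul_assoc _ τ τ, hτ, mul_one])

/-- Relations transfer from a covering of the cosets of a subgroup on which they transfer. -/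
theorem transfer_cover [Finite Γ] {ev : ℕ → Γ} {xs : ℕ → G}
    {Ws X : List (List ℕ)} {n : ℕ}
    (hc : Cover (gen (fun l => (ev l, xs l)) Ws) (gen (fun l => (ev l, xs l)) X) n)
    (h1 : ∀ z ∈ gen (fun l => (ev l, xs l)) Ws, z.1 = 1 → z.2 = 1) {H : Subgroup Γ}
    (hH : gen ev Ws ≤ H) (hn : H.index = n) (hX : gen ev X = ⊤) {w : List ℕ}
    (hw : evL (fun l => (ev l, xs l)) w ∈ gen (fun l => (ev l, xs l)) X) (e : evL ev w = 1) :
    evL xs w = 1 := by
  set p : ℕ → Γ × G := fun l => (ev l, xs l)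
  have a1 : ∀ z ∈ gen p Ws, z.1 ∈ H := fun z hz => hH (by
    have := Subgroup.mem_map_of_mem (MonoidHom.fst Γ G) hz
    rwa [map_gen] at this)
  let f : gen p Ws → H := fun z => ⟨z.1.1, a1 _ z.2⟩
  have hf : Function.Injective f := fun a b e1 => by
    have e2 : a.1.1 = b.1.1 := congrArg Subtype.val e1
    have := h1 _ ((gen p Ws).mul_mem a.2 ((gen p Ws).inv_mem b.2)) (by simp [e2])
    exact Subtype.ext (Prod.ext e2 (by simpa [mul_inv_eq_one] using this))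
  have := Finite.of_injective f hf
  obtain ⟨b1, b2⟩ := hc.finite_card
  let g : gen p X →* Γ := (MonoidHom.fst Γ G).comp (gen p X).subtype
  have hg : Function.Surjective g := by
    rw [← MonoidHom.range_eq_top, MonoidHom.range_comp, Subgroup.range_subtype, map_gen]
    exact hX
  have b3 := (hg.bijective_of_nat_card_le (b2.trans (by
    rw [← Subgroup.index_mul_card H, hn]
    exact Nat.mul_le_mul_left _ (Nat.card_le_card_of_injective f hf)))).1
  have b4 := (injective_iff_map_eq_one g).mp b3 ⟨_, hw⟩ (by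
    show (evL p w).1 = 1
    rw [evL_pair]; exact e)
  have b5 := congrArg (fun z : gen p X => z.1.2) b4
  simpa [evL_pair, p] using b5

end Cfsg.H6
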