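import Cfsg.Agent.H6.HNR.Cnt
import Cfsg.Agent.H6.DCE3

/-! Further tools for classes read off a permutation table: enumeration, candidates, signs in a double
cover. -/

set_option autoImplicit false

namespace Cfsg.H6

open scoped commutatorElement

variable {Γ : Type*} [Group Γ]
variable {φ : Γ →* Equiv.Perm ℕ} {ev : ℕ → Γ} {img : ℕ → ℕ → ℕ} {n m inv : ℕ} {bs tw : List ℕ}

theorem TM.of_fix (ha : IsAct φ ev img n m) (hev : Good ev inv) (ho : Oracle ev img m bs)
    {Ws X U : List (List ℕ)} {us : List ℕ} (hs : fixS φ [0] ≤ gen ev Ws) (hX : gen ev X = ⊤)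
    (h : (Nat.blt 0 n && X.all (inR m) && fixB img m bs (tw ++ tw) && fixB img m [0] tw &&
      (comms inv tw Ws).all (fixB img m bs) && Ws.all (fixB img m [0]) &&
      (U.all fun u => inR m u && movB img n m bs (u ++ tw ++ invW inv u ++ invW inv tw)) &&
      orbK img Ws (fun M => allB (fun p => Nat.beq p 0 || bit M p || !Nat.beq (trF img tw p) p) n) us
        (maskI (U.map fun u => trF img u 0))) = true) :
    TM φ ev img n m inv bs tw := by
  simp only [Bool.and_eq_true, Nat.blt_eq] at h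
  obtain ⟨⟨⟨⟨⟨⟨⟨h0, h1⟩, h2⟩, h9⟩, h3⟩, h4⟩, h5⟩, h6⟩ := h
  have hle : gen ev Ws ≤ Subgroup.centralizer {evL ev tw} := gen_le fun w hw => by
    rw [Subgroup.mem_centralizer_singleton_iff]
    have := ho.rels h3 _ (List.mem_map.mpr ⟨w, hw, rfl⟩)
    rwa [evL_append, evL_append, evL_append, evL_invW hev, evL_invW hev, mul_inv_eq_one,
      mul_inv_eq_iff_eq_mul] at this
  have hlt : ∀ g, (φ g)⁻¹ 0 < n := fun g =>
    gen_preserves (φ := φ) (ev := ev) (S := Set.Iio n) (Set.finite_Iio n) (Ws := X)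
      (fun w hw p hp => by
        have := ha.trF (List.all_eq_true.mp h1 w hw) hp
        rw [this.1]; exact this.2) g (hX ▸ Subgroup.mem_top g) 0 h0
  have k1 : ∀ g, (φ g)⁻¹ 0 = 0 → Commute g (evL ev tw) := fun g e =>
    Subgroup.mem_centralizer_singleton_iff.mp (hle (hs (mem_fixS'.mpr (by simpa using e))))
  refine ⟨ha, hev, ho, fun g => ⟨k1 g, fun hg => ?_⟩, hlt, by rw [← evL_append]; exact ho _ h2⟩
  obtain ⟨M, hM, hf⟩ := orbK_sound
    (P := fun p => p < n ∧ ∃ k, ¬ Commute k (evL ev tw) ∧ (φ k)⁻¹ 0 = p) (by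
      rintro w hw p ⟨hp, k, k2, rfl⟩
      have h7 := List.all_eq_true.mp h4 w hw
      unfold fixB at h7
      rw [Bool.and_eq_true] at h7
      have h8 := ha.trF h7.1 hp
      refine ⟨h8.2, k * evL ev w, fun c => k2 ?_, by
        rw [← h8.1, map_mul, mul_inv_rev, Equiv.Perm.mul_apply]⟩
      have c2 : Commute (evL ev w) (evL ev tw) :=
        Subgroup.mem_centralizer_singleton_iff.mp (hle (evL_mem_gen ev hw))
      simpa using c.mul_left c2.inv_left) _ _ (by
      intro p hp
      obtain ⟨u, hu, rfl⟩ := List.mem_map.mp (maskI_spec hp)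
      have h7 := List.all_eq_true.mp h5 u hu
      rw [Bool.and_eq_true] at h7
      have h8 := ha.trF h7.1 h0
      refine ⟨h8.2, evL ev u, fun c => ha.mov h7.2 ?_, h8.1⟩
      rw [evL_append, evL_append, evL_append, evL_invW hev, evL_invW hev, c.eq]
      group) h6
  have h7 := allB_spec hf _ (hlt g)
  simp only [Bool.or_eq_true, Nat.beq_eq, nbeq_iff] at h7
  rcases h7 with (h7 | h7) | h7
  · exact h7
  · obtain ⟨_, k, k2, k3⟩ := hM _ (bit_spec h7)
    refine absurd ?_ k2
    have := k1 (k * g⁻¹) (by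
      rw [map_mul, mul_inv_rev, map_inv, inv_inv, Equiv.Perm.mul_apply, k3]; simp)
    simpa using this.mul_left hg
  · refine absurd ?_ h7
    have k2 : (φ (evL ev tw))⁻¹ 0 = 0 :=
      mem_fixS'.mp (ha.mem_fixS (by simpa using h0) h9) 0 (List.mem_singleton_self 0)
    unfold fixB at h9
    rw [Bool.and_eq_true] at h9
    rw [← (ha.trF h9.1 (hlt g)).1, ← Equiv.Perm.mul_apply, ← mul_inv_rev, ← map_mul, hg.eq, map_mul,
      mul_inv_rev, Equiv.Perm.mul_apply, k2]

theorem Rig.one (T : TM φ ev img n m inv bs tw) {e : Std} {k : ℕ} {R N : List (List ℕ)}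
    (h : (Nat.blt 0 k && stdChk img m inv bs tw e) = true) : Rig ev tw [e] k R N 1 := by
  rw [Bool.and_eq_true, Nat.blt_eq] at h
  intro xs hx
  obtain ⟨g, hg⟩ := IsConj.exists_cj ((hx.cj 0 h.1).symm.trans (T.std h.2).2.isConj)
  refine ⟨g, fun j hj => ?_⟩
  obtain rfl : j = 0 := by omega
  exact hg

theorem Rig.mono {S : List Std} {k k' i : ℕ} {R N R' N' : List (List ℕ)} (h : Rig ev tw S k R N i)
    (hc : (Nat.ble k k' && R.all R'.elem && N.all N'.elem) = true) : Rig ev tw S k' R' N' i := by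
  simp only [Bool.and_eq_true, Nat.ble_eq, List.all_eq_true] at hc
  exact fun xs hx => h xs ⟨fun j hj => hx.cj j (by omega),
    fun r hr => hx.rel r (List.mem_of_elem_eq_true (hc.1.2 r hr)),
    fun r hr => hx.ne r (List.mem_of_elem_eq_true (hc.2 r hr))⟩

/-- An element of the class with prescribed commuting words is on a list. -/
theorem TM.cand (T : TM φ ev img n m inv bs tw) {cm nc : List (List ℕ)} {L : List Std}
    (h : (cm.all (inR m) && nc.all (inR m) && L.all (stdChk img m inv bs tw) &&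
      allB (fun p => cm.any (fun w => !Nat.beq (trF img w p) p) ||
        nc.any (fun w => Nat.beq (trF img w p) p) || L.any fun e => Nat.beq e.1 p) n) = true)
    {y : Γ} (hy : IsConj (evL ev tw) y) (h1 : ∀ w ∈ cm, Commute (evL ev w) y)
    (h2 : ∀ w ∈ nc, ¬ Commute (evL ev w) y) : ∃ e ∈ L, y = evL ev e.2.2 := by
  simp only [Bool.and_eq_true, List.all_eq_true] at h
  obtain ⟨⟨⟨a1, a2⟩, a3⟩, a4⟩ := h
  obtain ⟨p, hp⟩ := exists_at (φ := φ) hy
  have a5 := allB_spec a4 p (T.at_lt hp)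
  simp only [Bool.or_eq_true, List.any_eq_true, Nat.beq_eq, nbeq_iff] at a5
  rcases a5 with (⟨w, hw, e⟩ | ⟨w, hw, e⟩) | ⟨e, he, e1⟩
  · exact absurd ((T.commW hp (a1 w hw)).mp (h1 w hw)) e
  · exact absurd ((T.commW hp (a2 w hw)).mpr e) (h2 w hw)
  · exact ⟨e, he, T.unique hp (e1 ▸ (T.std (a3 e he)).2)⟩

/-- An element that commutes with standard words fixes their points. -/
theorem TM.fix (T : TM φ ev img n m inv bs tw) {S : List Std}
    (h : S.all (stdChk img m inv bs tw) = true) {y : Γ} (hy : ∀ e ∈ S, Commute y (evL ev e.2.2)) :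
    y ∈ fixS φ (S.map Prod.fst) := by
  rw [mem_fixS']
  intro b hb
  obtain ⟨e, he, rfl⟩ := List.mem_map.mp hb
  exact (T.comm (T.std (List.all_eq_true.mp h e he)).2).mp (hy e he)

/-- The images of the base as one number. -/
noncomputable def keyN (img : ℕ → ℕ → ℕ) (n : ℕ) (bs w : List ℕ) : ℕ :=
  bs.foldr (fun b acc => Nat.add (trF img w b) (Nat.mul n acc)) 0

def incB : List ℕ → Bool
  | a :: b :: l => Nat.blt a b && incB (b :: l)
  | _ => true

theorem incB_spec : ∀ {l : List ℕ}, incB l = true → l.Pairwise (· < ·)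
  | [], _ => List.Pairwise.nil
  | [_], _ => List.pairwise_singleton _ _
  | a :: b :: l, h => by
    simp only [incB, Bool.and_eq_true, Nat.blt_eq] at h
    have h1 := incB_spec h.2
    refine List.pairwise_cons.mpr ⟨fun c hc => ?_, h1⟩
    rcases List.mem_cons.mp hc with rfl | hc
    · exact h.1
    · exact h.1.trans ((List.pairwise_cons.mp h1).1 c hc)

/-- A subgroup of bounded order is a list of words. -/
theorem IsAct.enum (ha : IsAct φ ev img n m) {K : Subgroup Γ} {N : ℕ} (hU : UB K N)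
    {L : List (List ℕ)} (hL : ∀ w ∈ L, evL ev w ∈ K)
    (h : (Nat.beq L.length N && ltB n bs && L.all (inR m) && incB (L.map (keyN img n bs))) = true)
    {x : Γ} (hx : x ∈ K) : ∃ w ∈ L, evL ev w = x := by
  classical
  simp only [Bool.and_eq_true, Nat.beq_eq, List.all_eq_true] at h
  obtain ⟨⟨⟨a1, a2⟩, a3⟩, a4⟩ := h
  have a5 := ltB_spec a2
  have hn : (L.map (evL ev)).Nodup := by
    have := incB_spec a4
    rw [List.pairwise_map] at this
    rw [List.Nodup, List.pairwise_map]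
    refine (List.Pairwise.and_mem.mp this).imp fun {u w} ⟨hu, hw, e⟩ e' => e.ne ?_
    unfold keyN
    refine List.foldr_ext _ _ _ fun b hb acc => ?_
    rw [← (ha.trF (a3 u hu) (a5 b hb)).1, ← (ha.trF (a3 w hw) (a5 b hb)).1, e']
  have := hU.1
  have hs : ((L.map (evL ev)).toFinset : Set Γ) = K := by
    refine Set.eq_of_subset_of_ncard_le (fun y hy => ?_) ?_ (Set.toFinite _)
    · obtain ⟨w, hw, rfl⟩ := List.mem_map.mp (List.mem_toFinset.mp (Finset.mem_coe.mp hy))
      exact hL w hw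
    · rw [Set.ncard_coe_finset, List.toFinset_card_of_nodup hn, List.length_map, a1,
        ← Nat.card_coe_set_eq]
      exact hU.2
  have h1 : x ∈ ((L.map (evL ev)).toFinset : Set Γ) := hs ▸ hx
  exact List.mem_map.mp (List.mem_toFinset.mp (Finset.mem_coe.mp h1))

/-- Two commuting elements of order three that generate more than a cyclic group. -/
theorem nine_dvd {H : Subgroup Γ} [Finite H] {a b : Γ} (ha : a ∈ H) (hb : b ∈ H) (a3 : a ^ 3 = 1)
    (b3 : b ^ 3 = 1) (c : Commute a b) (n1 : a ≠ 1) (n2 : b ≠ 1) (n3 : a ≠ b) (n4 : a * b ≠ 1) :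
    9 ∣ Nat.card H := by
  classical
  let K : Subgroup Γ :=
    { carrier := {x | ∃ i j : ℤ, x = a ^ i * b ^ j}
      one_mem' := ⟨0, 0, by simp⟩
      mul_mem' := by
        rintro _ _ ⟨i, j, rfl⟩ ⟨k, l, rfl⟩
        exact ⟨i + k, j + l, by
          rw [zpow_add, zpow_add, mul_assoc, ← mul_assoc (b ^ j), ← (c.zpow_zpow k j).eq]; group⟩
      inv_mem' := by
        rintro _ ⟨i, j, rfl⟩
        exact ⟨-i, -j, by rw [mul_inv_rev, ← zpow_neg, ← zpow_neg, (c.zpow_zpow (-i) (-j)).eq]⟩ }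
  have hK : K ≤ H := by
    rintro _ ⟨i, j, rfl⟩
    exact H.mul_mem (H.zpow_mem ha i) (H.zpow_mem hb j)
  have : Finite K := Finite.of_injective _ (Subgroup.inclusion_injective hK)
  have : Fact (Nat.Prime 3) := ⟨Nat.prime_three⟩
  have hp : IsPGroup 3 K := by
    rintro ⟨_, i, j, rfl⟩
    refine ⟨1, Subtype.ext ?_⟩
    show (a ^ i * b ^ j) ^ 3 ^ 1 = 1
    rw [pow_one, (c.zpow_zpow i j).mul_pow, ← zpow_natCast, ← zpow_natCast, ← zpow_mul, ← zpow_mul,
      mul_comm i, mul_comm j, zpow_mul, zpow_mul, zpow_natCast, zpow_natCast, a3, b3]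
    simp
  obtain ⟨k, hk⟩ := IsPGroup.iff_card.mp hp
  have h4 : 4 ≤ Nat.card K := by
    have e1 : ({1, a, b, a * b} : Finset Γ).card = 4 := by
      rw [Finset.card_insert_of_notMem (by simp [n1.symm, n2.symm, n4.symm]),
        Finset.card_insert_of_notMem (by simp [n3, n2]),
        Finset.card_insert_of_notMem (by simp [n1])]
      simp
    have e2 : (({1, a, b, a * b} : Finset Γ) : Set Γ) ⊆ K := by
      intro x hx
      simp only [Finset.coe_insert, Finset.coe_singleton, Set.mem_insert_iff,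
        Set.mem_singleton_iff] at hx
      rcases hx with rfl | rfl | rfl | rfl
      exacts [⟨0, 0, by simp⟩, ⟨1, 0, by simp⟩, ⟨0, 1, by simp⟩, ⟨1, 1, by simp⟩]
    have := Set.ncard_le_ncard e2 (Set.toFinite _)
    rwa [Set.ncard_coe_finset, e1, ← Nat.card_coe_set_eq] at this
  refine Dvd.dvd.trans ?_ (Subgroup.card_dvd_of_le hK)
  rw [hk] at h4 ⊢
  have h2 : 2 ≤ k := by
    by_contra hc
    obtain rfl | rfl : k = 0 ∨ k = 1 := by omega
    all_goals simp at h4
  exact pow_dvd_pow 3 h2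

theorem isConj_of_odd {u v : Γ} (hu : u * u = 1) (hv : v * v = 1) {k : ℕ}
    (h : (u * v) ^ (2 * k + 1) = 1) : IsConj u v := by
  have hu' := inv_eq_of_mul_eq_one_right hu
  have hv' := inv_eq_of_mul_eq_one_right hv
  have h1 : ∀ j : ℕ, u * (u * v) ^ j = ((u * v) ^ j)⁻¹ * u := fun j => by
    rw [← inv_pow, mul_inv_rev, hu', hv']
    have : SemiconjBy u (u * v) (v * u) := by
      rw [SemiconjBy, ← mul_assoc, hu, mul_assoc, hu, one_mul, mul_one]
    exact this.pow_right j
  refine isConj_iff.mpr ⟨(u * v) ^ k, ?_⟩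
  have h2 : (u * v) ^ k * u = u * ((u * v) ^ k)⁻¹ := by
    have := congrArg (·⁻¹) (h1 k)
    simp only [mul_inv_rev, inv_inv, hu'] at this
    rw [eq_mul_inv_iff_mul_eq, mul_assoc, h1 k]; group
  have h3 : ((u * v) ^ k)⁻¹ * ((u * v) ^ k)⁻¹ = u * v := by
    rw [← mul_inv_rev, ← pow_add, inv_eq_iff_mul_eq_one, ← pow_succ, ← two_mul, h]
  rw [h2, mul_assoc, h3, ← mul_assoc, hu, one_mul]

namespace DC

variable {C Q : Type*} [Group C] [Group Q] {π : C →* Q} {d : C}

theorem cenk (h : DC π d) {z : C} (hz : π z = 1) : z * z = 1 ∧ ∀ x, Commute x z := by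
  rcases h.ker z hz with h1 | h1
  · rw [h1]; exact ⟨one_mul 1, Commute.one_right⟩
  · rw [h1]; exact ⟨h.sq, h.cen⟩

theorem mem_of (h : DC π d) {xs : ℕ → C} {Ws : List (List ℕ)} {S : Subgroup C} (hd : d ∈ S)
    (hW : ∀ w ∈ Ws, evL xs w ∈ S) {x : C} (hx : π x ∈ gen (fun l => π (xs l)) Ws) : x ∈ S := by
  rw [← map_gen] at hx
  obtain ⟨y, hy, e⟩ := hx
  have := gen_le hW hy
  rcases h.eq e.symm with h1 | h1 <;> rw [h1]
  · exact this
  · exact S.mul_mem this hd

/-- Squares are constant on classes of involutions of the quotient. -/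
theorem sq_cj (h : DC π d) {x y : C} (hx : π x * π x = 1) (e : IsConj (π x) (π y)) :
    y * y = x * x := by
  obtain ⟨g, e1⟩ := IsConj.exists_cj e
  obtain ⟨g, rfl⟩ := h.surj g
  rw [h.sq_eq (y := g⁻¹ * x * g) (by simp [e1]),
    ← cj_of_commute ((h.cenk (z := x * x) (by rw [map_mul, hx])).2 g)]
  group

/-- The commutator of lifts of commuting involutions. -/
theorem comm_sq (h : DC π d) {x y : C} (hx : π x * π x = 1) (hy : π y * π y = 1) :
    x⁻¹ * y⁻¹ * x * y = x * x * (y * y) * (x * y * (x * y)) := by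
  obtain ⟨a1, a2⟩ := h.cenk (z := x * x) (by rw [map_mul, hx])
  obtain ⟨b1, b2⟩ := h.cenk (z := y * y) (by rw [map_mul, hy])
  have e1 : x⁻¹ = x * x * x := by
    rw [inv_eq_iff_mul_eq_one, ← a1]; group
  have e2 : y⁻¹ = y * y * y := by
    rw [inv_eq_iff_mul_eq_one, ← b1]; group
  rw [e1, e2, mul_assoc (x * x) x, ← mul_assoc x (y * y), (b2 x).eq]
  group

/-- The commutator with a fixed element is multiplicative. -/
theorem comm_mul (h : DC π d) {x y z : C} (hy : Commute (π x) (π y)) :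
    x⁻¹ * (y * z)⁻¹ * x * (y * z) = (x⁻¹ * y⁻¹ * x * y) * (x⁻¹ * z⁻¹ * x * z) := by
  have a := (h.cenk (z := x⁻¹ * y⁻¹ * x * y) (by
    simp only [map_mul, map_inv]
    rw [mul_assoc, hy.eq]; group)).2
  calc x⁻¹ * (y * z)⁻¹ * x * (y * z) = (x⁻¹ * z⁻¹ * x) * (x⁻¹ * y⁻¹ * x * y) * z := by group
    _ = _ := by rw [(a _).eq]; group

/-- The seven squares over an elementary abelian group of order eight. -/
theorem seven (h : DC π d) {x y z : C} (hx : π x * π x = 1) (hy : π y * π y = 1)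
    (hz : π z * π z = 1) (c1 : Commute (π x) (π y)) (c3 : Commute (π y) (π z)) :
    x * (y * z) * (x * (y * z)) = x * x * (y * y) * (z * z) * (x * y * (x * y)) *
      (x * z * (x * z)) * (y * z * (y * z)) := by
  have hyz : π (y * z) * π (y * z) = 1 := by rw [map_mul]; exact sq_mul hy hz c3
  have e := h.comm_mul (z := z) c1
  rw [h.comm_sq hx hyz, h.comm_sq hx hy, h.comm_sq hx hz] at e
  obtain ⟨a1, a2⟩ := h.cenk (z := x * x) (by rw [map_mul, hx])
  obtain ⟨b1, b2⟩ := h.cenk (z := y * y) (by rw [map_mul, hy])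
  obtain ⟨d1, d2⟩ := h.cenk (z := z * z) (by rw [map_mul, hz])
  obtain ⟨f1, f2⟩ := h.cenk (z := y * z * (y * z)) (by rw [map_mul, hyz])
  generalize x * (y * z) * (x * (y * z)) = p at e
  generalize x * y * (x * y) = q at e
  generalize x * z * (x * z) = r at e
  generalize y * z * (y * z) = f at e f1 f2
  generalize x * x = a at e a1 a2
  generalize y * y = b at e b1 b2
  generalize z * z = c at e d1 d2
  calc p = f * (a * (a * f * p)) := by
        rw [← mul_assoc a, ← mul_assoc a, a1, one_mul, ← mul_assoc, f1, one_mul]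
    _ = f * (a * a * (b * q * a * c * r)) := by rw [e]; group
    _ = _ := by
      rw [a1, one_mul, ← (f2 _).eq, (a2 (b * q)).eq, mul_assoc _ c r, ← mul_assoc a b q,
        mul_assoc (a * b) q, ← mul_assoc q c r, (d2 q).eq]
      group

end DC

end Cfsg.H6
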