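import Cfsg.Agent.H6.HNR.L1

/-! A configuration of involutions around an elementary abelian group of order sixteen that cannot
occur. -/

set_option autoImplicit false

namespace Cfsg.H6

/-- A subgroup extended by a commuting involution. -/
def ext2 {Y : Type*} [Group Y] (K : Subgroup Y) (s : Y) (hs : s * s = 1) (hc : ∀ k ∈ K, Commute s k) :
    Subgroup Y where
  carrier := {x | x ∈ K ∨ ∃ k ∈ K, x = s * k}
  one_mem' := Or.inl K.one_mem
  mul_mem' := by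
    rintro a b (ha | ⟨a, ha, rfl⟩) (hb | ⟨b, hb, rfl⟩)
    · exact Or.inl (K.mul_mem ha hb)
    · exact Or.inr ⟨_, K.mul_mem ha hb, by rw [← mul_assoc, ← (hc a ha).eq, mul_assoc]⟩
    · exact Or.inr ⟨_, K.mul_mem ha hb, mul_assoc _ _ _⟩
    · exact Or.inl (by
        rw [mul_assoc, ← mul_assoc a, ← (hc a ha).eq, ← mul_assoc, ← mul_assoc, hs, one_mul]
        exact K.mul_mem ha hb)
  inv_mem' := by
    rintro a (ha | ⟨a, ha, rfl⟩)
    · exact Or.inl (K.inv_mem ha)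
    · exact Or.inr ⟨_, K.inv_mem ha, by
        rw [mul_inv_rev, inv_eq_of_mul_eq_one_right hs, (hc _ (K.inv_mem ha)).eq]⟩

theorem exists_fix_cj {N : Type*} [Group N] (s : Finset N) {g : N} {p k : ℕ} (hp : p.Prime)
    (hs : ¬ p ∣ s.card) (hg : g ^ p ^ k = 1) (h : ∀ x ∈ s, g⁻¹ * x * g ∈ s) :
    ∃ x ∈ s, Commute g x := by
  classical
  have := Fact.mk hp
  have h1 : ∀ n : ℕ, ∀ x ∈ s, (g ^ n)⁻¹ * x * g ^ n ∈ s := fun n => by
    induction n with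
    | zero => simp
    | succ n ih => exact fun x hx => by simpa [pow_succ, mul_assoc] using h _ (ih x hx)
  have h2 : g ^ (p ^ k - 1) = g⁻¹ := by
    rw [eq_inv_iff_mul_eq_one, ← pow_succ, Nat.sub_add_cancel (Nat.one_le_pow _ _ hp.pos), hg]
  let σ : Equiv.Perm N := MulAut.toPerm N (MulAut.conj g)
  have hσ : ∀ x, σ x = g * x * g⁻¹ := fun _ => rfl
  have h3 : ∀ x, σ x ∈ s ↔ x ∈ s := fun x => by
    rw [hσ]
    exact ⟨fun e => by simpa [mul_assoc] using h _ e,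
      fun e => by simpa [h2] using h1 (p ^ k - 1) x e⟩
  obtain ⟨⟨x, hx⟩, e⟩ := Equiv.Perm.exists_fixed_point_of_prime (p := p) (n := k)
    (by rwa [Fintype.card_coe]) (σ := σ.subtypePerm h3) (by
      rw [Equiv.Perm.subtypePerm_pow]
      ext x
      simp only [σ, ← map_pow, hg, map_one]
      rfl)
  exact ⟨x, hx, mul_inv_eq_iff_eq_mul.mp (congrArg Subtype.val e)⟩

/-- The rotation on masks. -/
def rot (v : ℕ) : ℕ := [0, 2, 3, 1, 4, 6, 7, 5, 8, 10, 11, 9, 12, 14, 15, 13].getD v 0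

theorem fake_core {N Y : Type*} [Group N] [Finite Y] [Group Y] {π : N →* Y} {e : ℕ → N}
    (C : DC π (e 8)) (D : N → Prop) (hD : ∀ a g, D a → D (g⁻¹ * a * g)) (D2 : ∀ a, D a → a * a = 1)
    (hx : ∀ u < 16, ∀ v < 16, e (u ^^^ v) = e u * e v)
    (hT : ∀ v < 16, D (e v) ↔ v ∈ [1, 2, 3, 9, 10, 11, 4, 13, 14, 15]) {r x t : N}
    (hr : ∀ v < 16, r⁻¹ * e v * r = e (rot v))
    {L : List N} (hL : L.length ≤ 10) (ten : ∀ y, D y → Commute y (e 1) → y ∈ L)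
    (ht : ∀ y, D y → Commute y (e 1) → (D (y * e 8) → t⁻¹ * y * t = y ∨ t⁻¹ * y * t = y * e 8) ∧
      (¬ D (y * e 8) → t⁻¹ * y * t ≠ y)) (t2 : t * t = 1) (tc : Commute t (e 1))
    (n1 : ¬ D t) (n2 : ¬ D (t * e 8)) (n3 : ¬ D (t * e 1)) (n4 : ¬ D (t * e 1 * e 8))
    (h4 : ∀ y, Commute y (e 4) → y⁻¹ * e 1 * y ≠ e 1 * e 8)
    (h5 : ¬ Commute (x⁻¹ * e 1 * x) (e 1)) : False := by
  classical
  have xl : ∀ u < 16, ∀ v < 16, u ^^^ v < 16 := fun u hu v hv => Nat.xor_lt_two_pow (n := 4) hu hv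
  have e0 : e 0 = 1 := by
    have := hx 0 (by omega) 0 (by omega)
    rwa [Nat.xor_self, eq_comm, mul_eq_left] at this
  have cm : ∀ u < 16, ∀ v < 16, Commute (e u) (e v) := fun u hu v hv => by
    rw [Commute, SemiconjBy, ← hx u hu v hv, ← hx v hv u hu, Nat.xor_comm]
  have inj : ∀ u < 16, ∀ v < 16, e u = e v → u = v := fun u hu v hv h => by
    have a1 : e (u ^^^ v) = 1 := by rw [hx u hu v hv, h, ← hx v hv v hv, Nat.xor_self, e0]
    by_contra hne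
    have a2 : ∀ w < 16, w = 0 ∨ ∃ z < 16, ¬ (z ∈ [1, 2, 3, 9, 10, 11, 4, 13, 14, 15] ↔
      z ^^^ w ∈ [1, 2, 3, 9, 10, 11, 4, 13, 14, 15]) := by decide +kernel
    rcases a2 _ (xl u hu v hv) with a3 | ⟨z, hz, a3⟩
    · exact hne (Nat.xor_eq_zero_iff.mp a3)
    · exact a3 (by rw [← hT z hz, ← hT _ (xl z hz _ (xl u hu v hv)), hx z hz _ (xl u hu v hv), a1, mul_one])
  have K1 : ∀ y, D y → Commute y (e 1) → ∃ v ∈ [1, 2, 3, 9, 10, 11, 4, 13, 14, 15], y = e v := by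
    intro y h1 h2
    have lt : ∀ v ∈ [1, 2, 3, 9, 10, 11, 4, 13, 14, 15], v < 16 := by decide
    have nd : ([1, 2, 3, 9, 10, 11, 4, 13, 14, 15].map e).Nodup :=
      List.Nodup.map_on (fun u hu v hv => inj u (lt u hu) v (lt v hv)) (by decide)
    have sub : ([1, 2, 3, 9, 10, 11, 4, 13, 14, 15].map e).toFinset ⊆ L.toFinset := fun z hz => by
      obtain ⟨v, hv, rfl⟩ := List.mem_map.mp (List.mem_toFinset.mp hz)
      exact List.mem_toFinset.mpr (ten _ ((hT v (lt v hv)).mpr hv) (cm v (lt v hv) 1 (by omega)))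
    have := Finset.eq_of_subset_of_card_le sub (by
      rw [List.toFinset_card_of_nodup nd]
      exact (List.toFinset_card_le L).trans hL)
    obtain ⟨v, hv, e1⟩ := List.mem_map.mp (List.mem_toFinset.mp
      (this.ge (List.mem_toFinset.mpr (ten y h1 h2))))
    exact ⟨v, hv, e1.symm⟩
  have back : ∀ a, a < 16 → (∀ y, D y → Commute y (e a) →
      ∃ v ∈ [1, 2, 3, 9, 10, 11, 4, 13, 14, 15], y = e v) → ∀ y, D y → Commute y (e (rot a)) →
      ∃ v ∈ [1, 2, 3, 9, 10, 11, 4, 13, 14, 15], y = e v := fun a ha h y h1 h2 => by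
    obtain ⟨v, hv, e1⟩ := h (r⁻¹⁻¹ * y * r⁻¹) (hD _ _ h1) (by
      have := commute_cj h2 r⁻¹
      rwa [← hr a ha, show r⁻¹⁻¹ * (r⁻¹ * e a * r) * r⁻¹ = e a by group] at this)
    have lt : ∀ v ∈ [1, 2, 3, 9, 10, 11, 4, 13, 14, 15], v < 16 ∧
      rot v ∈ [1, 2, 3, 9, 10, 11, 4, 13, 14, 15] := by decide
    exact ⟨rot v, (lt v hv).2, by rw [← hr v (lt v hv).1, ← e1]; group⟩
  have K : ∀ a ∈ [1, 2, 3, 9, 10, 11], ∀ y, D y → Commute y (e a) →
      ∃ v ∈ [1, 2, 3, 9, 10, 11, 4, 13, 14, 15], y = e v := by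
    have K2 := back 1 (by omega) K1
    have K3 := back 2 (by omega) K2
    have sh : ∀ a < 16, ∀ y, Commute y (e (a ^^^ 8)) → Commute y (e a) := fun a ha y h => by
      have := h.mul_right (C.cen y)
      rwa [hx a ha 8 (by omega), mul_assoc, C.sq, mul_one] at this
    intro a ha
    simp only [List.mem_cons, List.not_mem_nil, or_false] at ha
    rcases ha with rfl | rfl | rfl | rfl | rfl | rfl
    exacts [K1, K2, K3, fun y a b => K1 y a (sh 1 (by omega) y b),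
      fun y a b => K2 y a (sh 2 (by omega) y b), fun y a b => K3 y a (sh 3 (by omega) y b)]
  let V : N → Prop := fun y => ∃ v ∈ [1, 2, 3, 9, 10, 11], y = e v
  let X : N → Prop := fun y => ∃ v ∈ [4, 13, 14, 15], y = e v
  have tb : ∀ v ∈ [1, 2, 3, 9, 10, 11, 4, 13, 14, 15], v < 16 ∧
      (v ∈ [1, 2, 3, 9, 10, 11] ↔ v ^^^ 8 ∈ [1, 2, 3, 9, 10, 11, 4, 13, 14, 15]) ∧
      (v ∈ [4, 13, 14, 15] ↔ v ^^^ 8 ∉ [1, 2, 3, 9, 10, 11, 4, 13, 14, 15]) := by decide +kernel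
  have tV : ∀ v ∈ [1, 2, 3, 9, 10, 11], v ∈ [1, 2, 3, 9, 10, 11, 4, 13, 14, 15] := by decide
  have tX : ∀ v ∈ [4, 13, 14, 15], v ∈ [1, 2, 3, 9, 10, 11, 4, 13, 14, 15] := by decide
  have d8 : ∀ v < 16, D (e v * e 8) ↔ v ^^^ 8 ∈ [1, 2, 3, 9, 10, 11, 4, 13, 14, 15] := fun v hv => by
    rw [← hx v hv 8 (by omega), hT _ (xl v hv 8 (by omega))]
  have VD : ∀ y, V y → D y ∧ D (y * e 8) := by
    rintro _ ⟨v, hv, rfl⟩
    obtain ⟨a, b, _⟩ := tb v (tV v hv)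
    exact ⟨(hT v a).mpr (tV v hv), (d8 v a).mpr (b.mp hv)⟩
  have XD : ∀ y, X y → D y ∧ ¬ D (y * e 8) := by
    rintro _ ⟨v, hv, rfl⟩
    obtain ⟨a, _, b⟩ := tb v (tX v hv)
    exact ⟨(hT v a).mpr (tX v hv), mt (d8 v a).mp (b.mp hv)⟩
  have KV : ∀ a y, V a → D y → Commute y a → (D (y * e 8) → V y) ∧ (¬ D (y * e 8) → X y) := by
    rintro _ y ⟨a, ha, rfl⟩ h1 h2
    obtain ⟨v, hv, rfl⟩ := K a ha y h1 h2
    obtain ⟨a1, a2, a3⟩ := tb v hv
    exact ⟨fun h => ⟨v, a2.mpr ((d8 v a1).mp h), rfl⟩, fun h => ⟨v, a3.mpr (mt (d8 v a1).mpr h), rfl⟩⟩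
  have cVV : ∀ a b, V a → V b → Commute a b := by
    rintro _ _ ⟨a, ha, rfl⟩ ⟨b, hb, rfl⟩
    exact cm a (tb a (tV a ha)).1 b (tb b (tV b hb)).1
  have cXV : ∀ a b, X a → V b → Commute a b := by
    rintro _ _ ⟨a, ha, rfl⟩ ⟨b, hb, rfl⟩
    exact cm a (tb a (tX a ha)).1 b (tb b (tV b hb)).1
  have cXX : ∀ a b, X a → X b → a ≠ b → Commute a b ∧ V (a * b) := by
    rintro _ _ ⟨a, ha, rfl⟩ ⟨b, hb, rfl⟩ h
    have : ∀ a ∈ [4, 13, 14, 15], ∀ b ∈ [4, 13, 14, 15], a = b ∨ a ^^^ b ∈ [1, 2, 3, 9, 10, 11] := by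
      decide +kernel
    exact ⟨cm a (tb a (tX a ha)).1 b (tb b (tX b hb)).1, _,
      (this a ha b hb).resolve_left fun e1 => h (e1 ▸ rfl),
      (hx a (tb a (tX a ha)).1 b (tb b (tX b hb)).1).symm⟩
  have c8 : ∀ y g : N, g⁻¹ * y * g * e 8 = g⁻¹ * (y * e 8) * g := fun y g => by
    rw [mul_assoc _ g, (C.cen g).eq]; group
  have hD' : ∀ a g, D (g⁻¹ * a * g) → D a := fun a g h => by
    have := hD _ g⁻¹ h
    rwa [show g⁻¹⁻¹ * (g⁻¹ * a * g) * g⁻¹ = a by group] at this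
  have F1 : ∀ g a, V a → V (g⁻¹ * a * g) → (∀ b, V b → V (g⁻¹ * b * g)) ∧
      ∀ b, X b → X (g⁻¹ * b * g) := fun g a h1 h2 =>
    ⟨fun b hb => (KV _ _ h2 (hD _ _ (VD b hb).1) (commute_cj (cVV _ _ hb h1) g)).1
      (c8 b g ▸ hD _ _ (VD b hb).2),
    fun b hb => (KV _ _ h2 (hD _ _ (XD b hb).1) (commute_cj (cXV _ _ hb h1) g)).2
      fun h => (XD b hb).2 (hD' _ g (c8 b g ▸ h))⟩
  have V1 : V (e 1) := ⟨1, by decide, rfl⟩
  have V2 : V (e 2) := ⟨2, by decide, rfl⟩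
  have V3 : V (e 3) := ⟨3, by decide, rfl⟩
  have e3 : e 3 = e 1 * e 2 := hx 1 (by omega) 2 (by omega)
  let Hn : Subgroup N :=
    { carrier := {g | V (g⁻¹ * e 1 * g)}
      one_mem' := by simpa using V1
      mul_mem' := fun {a b} ha hb => by
        have := (F1 b _ V1 hb).1 _ ha
        simpa [mul_assoc] using this
      inv_mem' := fun {a} ha => (F1 a⁻¹ _ ha (by simpa [mul_assoc] using V1)).1 _ V1 }
  have z8 : e 8 ∈ Hn := by
    show V _
    rw [cj_of_commute (C.cen _).symm]; exact V1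
  have mH : ∀ g, π g ∈ Hn.map π ↔ g ∈ Hn := fun g => ⟨fun ⟨k, hk, e1⟩ => by
    rcases C.eq e1.symm with h | h <;> rw [h]
    exacts [hk, Hn.mul_mem hk z8], fun h => ⟨g, h, rfl⟩⟩
  have F2 : ∀ y, D y → D (y * e 8) → y ∈ Hn → V y := fun y h1 h2 h3 => by
    have y2 := D2 y h1
    have fin : ∀ b, V b → Commute y b → V y := fun b hb c => (KV b y hb h1 c).1 h2
    have prod : ∀ b, Commute b (y⁻¹ * b * y) → Commute y (b * (y⁻¹ * b * y)) := fun b c =>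
      commute_of_cj (by
        rw [show y⁻¹ * (b * (y⁻¹ * b * y)) * y = y⁻¹ * b * y * ((y * y)⁻¹ * b * (y * y)) by group, y2,
          inv_one, one_mul, mul_one, c.eq])
    obtain ⟨v, hv, e1⟩ := h3
    have tv : ∀ v ∈ [1, 2, 3, 9, 10, 11], v = 1 ∨ v = 9 ∨ 1 ^^^ v ∈ [1, 2, 3, 9, 10, 11] := by
      decide +kernel
    rcases tv v hv with rfl | rfl | a
    · exact fin _ V1 (commute_of_cj e1)
    · have X4 : X (e 4) := ⟨4, by decide, rfl⟩
      have a := (F1 y _ V1 ⟨9, hv, e1⟩).2 _ X4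
      by_cases b : e 4 = y⁻¹ * e 4 * y
      · exact absurd (e1.trans (hx 1 (by omega) 8 (by omega))) (h4 y (commute_of_cj b.symm))
      · obtain ⟨c1, c2⟩ := cXX _ _ X4 a b
        exact fin _ c2 (prod _ c1)
    · have b := (tb v (tV v hv)).1
      refine fin _ ⟨_, a, (hx 1 (by omega) v b).symm⟩ ?_
      rw [← e1]
      exact prod _ (e1 ▸ cm 1 (by omega) v b)
  have p8 : ∀ v < 16, π (e (v ^^^ 8)) = π (e v) := fun v hv => by
    rw [hx v hv 8 (by omega), map_mul, C.map, mul_one]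
  have sq : ∀ a, V a → π a * π a = 1 := fun a ha => by rw [← map_mul, D2 a (VD a ha).1, map_one]
  let W := V4 (π (e 1)) (π (e 2)) (sq _ V1) (sq _ V2) ((cVV _ _ V1 V2).map π)
  have VW : ∀ a, V a → π a ∈ W := by
    rintro _ ⟨v, hv, rfl⟩
    have a3 : π (e 3) ∈ W := Or.inr (Or.inr (Or.inr (by rw [e3, map_mul])))
    simp only [List.mem_cons, List.not_mem_nil, or_false] at hv
    rcases hv with rfl | rfl | rfl | rfl | rfl | rfl
    exacts [Or.inr (Or.inl rfl), Or.inr (Or.inr (Or.inl rfl)), a3,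
      Or.inr (Or.inl (p8 1 (by omega))), Or.inr (Or.inr (Or.inl (p8 2 (by omega)))),
      p8 3 (by omega) ▸ a3]
  have WV : ∀ c ∈ W, c = 1 ∨ ∃ a, V a ∧ π a = c := by
    rintro _ (rfl | rfl | rfl | rfl)
    exacts [Or.inl rfl, Or.inr ⟨_, V1, rfl⟩, Or.inr ⟨_, V2, rfl⟩, Or.inr ⟨_, V3, by rw [e3, map_mul]⟩]
  have tW : ∀ c ∈ W, Commute (π t) c := fun c hc => by
    rcases WV c hc with rfl | ⟨a, ha, rfl⟩
    · exact Commute.one_right _
    refine commute_of_cj ?_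
    rw [← map_inv, ← map_mul, ← map_mul]
    rcases (ht a (VD a ha).1 (cVV _ _ ha V1)).1 (VD a ha).2 with h | h <;> rw [h]
    rw [map_mul, C.map, mul_one]
  have tt : π t * π t = 1 := by rw [← map_mul, t2, map_one]
  have nc : ∀ y, ¬ D y → ¬ D (y * e 8) → ¬ IsConj (π (e 1)) (π y) := fun y a b h => by
    obtain ⟨γ, hγ⟩ := IsConj.exists_cj h
    obtain ⟨g, rfl⟩ := C.surj γ
    have := hD _ g (VD _ V1).1
    rcases C.eq (x := g⁻¹ * e 1 * g) (y := y) (by simpa using hγ) with h | h <;> rw [h] at this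
    exacts [a this, b this]
  have top := top_core (Hn.map π) (ext2 W (π t) tt tW) {c | ∃ a, V a ∧ π a = c} (by
      rintro _ ⟨a, ha, rfl⟩
      refine ⟨Or.inl (VW a ha), (mH a).mpr (by
        show V _
        rw [cj_of_commute (cVV _ _ ha V1)]; exact V1), fun γ hγ => ?_⟩
      obtain ⟨g, rfl⟩ := C.surj γ
      rw [← map_inv, ← map_mul, ← map_mul, mH] at hγ
      exact (mH g).mpr ((F1 g a ha (F2 _ (hD _ _ (VD a ha).1) (c8 a g ▸ hD _ _ (VD a ha).2) hγ)).1 _ V1))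
    (by
      have a : ∀ c ∈ W, c * c = 1 := fun c hc => by
        rcases WV c hc with rfl | ⟨a, ha, rfl⟩
        exacts [one_mul 1, sq a ha]
      rintro c (hc | ⟨k, hk, rfl⟩)
      exacts [a c hc, sq_mul tt (a k hk) (tW k hk)])
    (by
      rintro _ ⟨a, ha, rfl⟩ _ ⟨g, hg, rfl⟩
      exact ⟨_, (F1 g _ V1 hg).1 a ha, by simp⟩)
    (by
      rintro c (hc | ⟨k, hk, rfl⟩) c1 _ ⟨g, hg, rfl⟩ c2 p n hp p2 hu
      · exact ⟨c, (WV c hc).resolve_left c1, c2⟩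
      obtain ⟨g', g1, g2, g3⟩ : ∃ g', g' ∈ Hn ∧ π g' = π g ∧ g' ^ p ^ n = 1 := by
        rcases C.ker (g ^ p ^ n) (by rw [map_pow, hu]) with h | h
        · exact ⟨g, hg, rfl, h⟩
        · refine ⟨g * e 8, Hn.mul_mem hg z8, by rw [map_mul, C.map, mul_one], ?_⟩
          obtain ⟨m, hm⟩ := (hp.odd_of_ne_two p2).pow (n := n)
          rw [(C.cen g).mul_pow, h, hm, pow_succ, pow_mul, pow_two, C.sq, one_pow, one_mul, C.sq]
      obtain ⟨ξ, x1, x2⟩ := exists_fix_cj ([4, 13, 14, 15].map e).toFinset hp (by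
        rw [List.toFinset_card_of_nodup (List.Nodup.map_on
          (fun u hu v hv => inj u (tb u (tX u hu)).1 v (tb v (tX v hv)).1) (by decide))]
        exact fun h => p2 ((Nat.prime_dvd_prime_iff_eq hp Nat.prime_two).mp
          (hp.dvd_of_dvd_pow (n := 2) h))) g3 fun y hy => by
        obtain ⟨v, hv, rfl⟩ := List.mem_map.mp (List.mem_toFinset.mp hy)
        obtain ⟨w, hw, e1⟩ := (F1 g' _ V1 g1).2 _ ⟨v, hv, rfl⟩
        exact List.mem_toFinset.mpr (List.mem_map.mpr ⟨w, hw, e1.symm⟩)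
      have x3 : X ξ := by
        obtain ⟨v, hv, rfl⟩ := List.mem_map.mp (List.mem_toFinset.mp x1)
        exact ⟨v, hv, rfl⟩
      have x4 := (F1 t _ V1 (by rw [cj_of_commute tc]; exact V1)).2 _ x3
      have x5 := (cXX _ _ x3 x4 ((ht ξ (XD ξ x3).1 (cXV _ _ x3 V1)).2 (XD ξ x3).2).symm).2
      refine ⟨_, ⟨_, x5, rfl⟩, ?_⟩
      have x6 : Commute (π g) (π ξ) := g2 ▸ x2.map π
      have x7 : Commute k (π (t⁻¹ * ξ * t)) := by
        rcases WV k hk with rfl | ⟨a, ha, rfl⟩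
        exacts [Commute.one_left _, ((cXV _ _ x4 ha).map π).symm]
      rw [map_mul, ← cj_of_commute x7, map_mul, map_mul, map_inv,
        show k⁻¹ * ((π t)⁻¹ * π ξ * π t) * k = (π t * k)⁻¹ * π ξ * (π t * k) by group]
      exact x6.mul_right ((c2.inv_right.mul_right x6).mul_right c2))
    (a1 := π (e 1)) (a2 := π (e 2)) (w := π t) ⟨_, V1, rfl⟩ ⟨_, V2, rfl⟩
    ⟨_, V3, by rw [e3, map_mul]⟩ (Or.inr ⟨1, W.one_mem, (mul_one _).symm⟩) (nc t n1 n2)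
    (by rw [← map_mul]; exact nc _ n3 n4)
  exact h5 (cVV _ _ ((mH x).mp (top ▸ Subgroup.mem_top _)) V1)

end Cfsg.H6
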