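import Cfsg.Agent.H6.HNR.L1
import Cfsg.Agent.H6.MRep

/-! Tools for the last step: Sylow subgroups of order `p ^ 2`, transport of a model, dihedral groups,
an oracle by matrices. -/

set_option autoImplicit false

namespace Cfsg.H6

variable {Γ : Type*} [Group Γ]

theorem exists_conj_mem_of_not_dvd [Finite Γ] {T : Subgroup Γ} {p : ℕ} (hp : p.Prime)
    (hT : ¬ p ∣ T.index) {x : Γ} {k : ℕ} (hx : x ^ p ^ k = 1) : ∃ g : Γ, g⁻¹ * x * g ∈ T := by
  have := Fact.mk hp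
  have hq : IsPGroup p (Subgroup.zpowers x) := by
    rintro ⟨_, n, rfl⟩
    refine ⟨k, Subtype.ext ?_⟩
    show (x ^ n) ^ p ^ k = 1
    rw [← zpow_natCast, ← zpow_mul, mul_comm, zpow_mul, zpow_natCast, hx, one_zpow]
  obtain ⟨q, hq⟩ := hq.nonempty_fixed_point_of_prime_not_dvd_card (Γ ⧸ T) hT
  induction q using QuotientGroup.induction_on with
  | H g =>
    have h1 := hq ⟨x, Subgroup.mem_zpowers x⟩
    have h2 : ((x * g : Γ) : Γ ⧸ T) = g := h1
    refine ⟨g, ?_⟩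
    have := T.inv_mem (QuotientGroup.eq.mp h2)
    simpa [mul_assoc] using this

/-- A Sylow subgroup generated by two commuting elements of prime order. -/
theorem syl_two [Finite Γ] {p : ℕ} (hp : p.Prime) {a b : Γ} (a3 : a ^ p = 1) (b3 : b ^ p = 1)
    (c : Commute a b) (hc : ¬ p ^ 3 ∣ Nat.card Γ) (n1 : a ≠ 1) (n2 : ∀ i < p, a ^ i ≠ b) {u : Γ} {k : ℕ}
    (hu : u ^ p ^ k = 1) : ∃ g : Γ, ∃ i < p, ∃ j < p, g⁻¹ * u * g = a ^ i * b ^ j := by
  have := Fact.mk hp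
  have e3 : ∀ i j : ℕ, (a ^ i * b ^ j) ^ p = 1 := fun i j => by
    rw [(c.pow_pow i j).mul_pow, ← pow_mul, ← pow_mul, mul_comm i, mul_comm j, pow_mul, pow_mul, a3,
      b3, one_pow, one_pow, one_mul]
  let K : Subgroup Γ :=
    { carrier := {x | ∃ i j : ℕ, x = a ^ i * b ^ j}
      one_mem' := ⟨0, 0, by simp⟩
      mul_mem' := by
        rintro _ _ ⟨i, j, rfl⟩ ⟨k, l, rfl⟩
        exact ⟨i + k, j + l, by
          rw [pow_add, pow_add, mul_assoc, ← mul_assoc (b ^ j), ← (c.pow_pow k j).eq]; group⟩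
      inv_mem' := by
        rintro _ ⟨i, j, rfl⟩
        refine ⟨i * (p - 1), j * (p - 1), ?_⟩
        rw [pow_mul, pow_mul, ← (c.pow_pow i j).mul_pow, inv_eq_iff_mul_eq_one, ← pow_succ',
          Nat.sub_add_cancel hp.one_le, e3] }
  have hK : IsPGroup p K := by
    rintro ⟨_, i, j, rfl⟩
    exact ⟨1, Subtype.ext (by simpa using e3 i j)⟩
  obtain ⟨e, he⟩ := IsPGroup.iff_card.mp hK
  have h1 : Subgroup.zpowers a < K := lt_of_le_of_ne (Subgroup.zpowers_le.mpr ⟨1, 0, by simp⟩) fun h => by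
    have : b ∈ Subgroup.zpowers a := h ▸ ⟨0, 1, by simp⟩
    obtain ⟨i, hi⟩ := (mem_powers_iff_mem_zpowers.mpr this : b ∈ Submonoid.powers a)
    exact n2 (i % p) (Nat.mod_lt _ hp.pos) (by rw [← pow_eq_pow_mod i a3]; exact hi)
  have h2 : p < p ^ e := by
    have := lt_of_not_ge fun h => h1.ne (Subgroup.eq_of_le_of_card_ge h1.le h)
    rwa [Nat.card_zpowers, orderOf_eq_prime a3 n1, he] at this
  have h3 : 2 ≤ e := by
    by_contra h
    have : p ^ e ≤ p ^ 1 := Nat.pow_le_pow_right hp.pos (by omega)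
    rw [pow_one] at this
    omega
  obtain ⟨g, i, j, hg⟩ := exists_conj_mem_of_not_dvd (T := K) hp (fun h => hc (by
    rw [← K.card_mul_index, he, pow_succ]
    exact Nat.mul_dvd_mul (pow_dvd_pow p h3) h)) hu
  exact ⟨g, i % p, Nat.mod_lt _ hp.pos, j % p, Nat.mod_lt _ hp.pos, by
    rw [← pow_eq_pow_mod i a3, ← pow_eq_pow_mod j b3, hg]⟩

theorem top_model {Y : Type*} [Group Y] [Finite Y] (ρ : Γ →* Y) (hρ : Function.Injective ρ)
    (E : Subgroup Γ) [hn : E.Normal] {a : Γ} (ha : a ∈ E) (hE : ∀ x ∈ E, x * x = 1)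
    (hodd : ∀ c ∈ E, c ≠ 1 → ∀ u, Commute u c → ∀ p k : ℕ, p.Prime → p ≠ 2 → u ^ p ^ k = 1 →
      ∃ g, Commute u (g⁻¹ * a * g))
    (fx : ∀ y : Y, y⁻¹ * ρ a * y ∈ ρ.range → y ∈ ρ.range) {g2 g3 w : Γ}
    (h : a * (g2⁻¹ * a * g2) = g3⁻¹ * a * g3) (hw : w ∈ E) (n1 : ¬ IsConj (ρ a) (ρ w))
    (n2 : ¬ IsConj (ρ a) (ρ (w * a))) : ρ.range = ⊤ := by
  refine top_core ρ.range (E.map ρ) {y | ∃ g, y = ρ (g⁻¹ * a * g)} ?_ ?_ ?_ ?_ (a1 := ρ a)
    (a2 := ρ (g2⁻¹ * a * g2)) (w := ρ w) ⟨1, by simp⟩ ⟨g2, rfl⟩ ⟨g3, by rw [← map_mul, h]⟩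
    ⟨w, hw, rfl⟩ n1 (by rwa [← map_mul])
  · rintro _ ⟨g, rfl⟩
    refine ⟨⟨_, hn.conj_mem' a ha g, rfl⟩, ⟨_, rfl⟩, fun y hy => ?_⟩
    have := fx (ρ g * y) (by simpa [mul_assoc] using hy)
    exact (ρ.range.mul_mem_cancel_left ⟨g, rfl⟩).mp this
  · rintro _ ⟨x, hx, rfl⟩
    rw [← map_mul, hE x hx, map_one]
  · rintro _ ⟨g, rfl⟩ _ ⟨k, rfl⟩
    exact ⟨g * k, by simp [mul_assoc]⟩
  · rintro _ ⟨c, hc, rfl⟩ c1 _ ⟨u, rfl⟩ c2 p k p1 p2 hu
    obtain ⟨g, hg⟩ := hodd c hc (fun e => c1 (by rw [e, map_one])) u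
      (hρ (by rw [map_mul, map_mul]; exact c2)) p k p1 p2 (hρ (by rw [map_pow, hu, map_one]))
    exact ⟨_, ⟨g, rfl⟩, hg.map ρ⟩

/-- Two involutions that are not conjugate commute with an involution. -/
theorem exists_cen_of_not_conj [Finite Γ] {u v : Γ} (hu : u * u = 1) (hv : v * v = 1)
    (h : ¬ IsConj u v) : ∃ c, c ≠ 1 ∧ c * c = 1 ∧ Commute u c ∧ Commute v c := by
  obtain ⟨k, hk | hk⟩ := Nat.even_or_odd' (orderOf (u * v))
  · have h1 : (u * v) ^ k * (u * v) ^ k = 1 := by rw [← pow_add, ← two_mul, ← hk, pow_orderOf_eq_one]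
    have h0 := orderOf_pos (u * v)
    have h2 : Commute u ((u * v) ^ k) := by
      have : SemiconjBy u (u * v) (u * v)⁻¹ := by
        rw [SemiconjBy, mul_inv_rev, inv_eq_of_mul_eq_one_right hu, inv_eq_of_mul_eq_one_right hv,
          ← mul_assoc, hu, mul_assoc, hu, one_mul, mul_one]
      have := this.pow_right k
      rwa [inv_pow, inv_eq_of_mul_eq_one_right h1] at this
    refine ⟨_, pow_ne_one_of_lt_orderOf (by omega) (by omega), h1, h2, ?_⟩
    have := h2.mul_left (Commute.self_pow (u * v) k)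
    rwa [← mul_assoc, hu, one_mul] at this
  · exact absurd (isConj_of_odd hu hv (hk ▸ pow_orderOf_eq_one _)) h

theorem DC.card {C Q : Type*} [Group C] [Group Q] {π : C →* Q} {d : C} (h : DC π d) (hd : d ≠ 1) :
    Nat.card C = 2 * Nat.card Q := by
  have h1 : Subgroup.zpowers d = π.ker := le_antisymm (Subgroup.zpowers_le.mpr h.map) fun x hx => by
    rcases h.ker x hx with e | e <;> rw [e]
    exacts [Subgroup.one_mem _, Subgroup.mem_zpowers _]
  rw [← π.ker.card_mul_index, Subgroup.index_ker, MonoidHom.range_eq_top.mpr h.surj,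
    Subgroup.card_top, ← h1, card_zpowers_two hd h.sq]

theorem exists_wordR {ev : ℕ → Γ} {m : ℕ} (h0 : ev 0 = 1) (h1 : ∀ l, m ≤ l → ev l = 1) (w : List ℕ) :
    ∃ v, inR m v = true ∧ evL ev v = evL ev w := by
  induction w with
  | nil => exact ⟨[], rfl, rfl⟩
  | cons x w ih =>
    obtain ⟨v, a, b⟩ := ih
    by_cases hx : 1 ≤ x ∧ x < m
    · refine ⟨x :: v, ?_, by rw [evL_cons, evL_cons, b]⟩
      unfold inR at a ⊢
      simp only [List.all_cons, a, Bool.and_true, Bool.and_eq_true, Nat.ble_eq, Nat.blt_eq]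
      exact hx
    · refine ⟨v, a, ?_⟩
      rw [evL_cons, b, show ev x = 1 by
        by_cases e : x = 0
        exacts [e ▸ h0, h1 x (by omega)], one_mul]

theorem Lab.faith {G Ω : Type*} [Group G] {ψ : G →* Equiv.Perm Ω} {ev' : ℕ → G} {f : ℕ → Ω}
    {img : ℕ → ℕ → ℕ} {n m : ℕ} (h : Lab ψ ev' f img n m) {ev : ℕ → Γ} {bs : List ℕ}
    (ho : Oracle ev img m bs) (hb : ltB n bs = true) {w : List ℕ} (hw : inR m w = true)
    (e : evL ev' w = 1) : evL ev w = 1 := by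
  refine ho w ?_
  unfold fixB
  rw [hw, Bool.true_and, List.all_eq_true]
  intro b hb'
  have h1 := h.tr hw (ltB_spec hb b hb')
  rw [e, map_one, inv_one, Equiv.Perm.one_apply] at h1
  exact Nat.beq_eq ▸ h.inj _ h1.2 _ (ltB_spec hb b hb') h1.1.symm

namespace Par

variable (P : Par) (code : ℕ → ℕ) (m : ℕ)

/-- The code of the product along a word. -/
noncomputable def val : List ℕ → ℕ
  | [] => P.one
  | x :: w => trF (P.img P.d code) w (code x)

/-- Two words have the same matrix. -/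
noncomputable def weq (u v : List ℕ) : Bool :=
  inR m u && inR m v && Nat.beq (P.val code u) (P.val code v)

variable {P code m}

theorem dec_val (h : P.ok = true) (ht : 0 < P.t) : ∀ w, P.dec P.d (P.val code w) = mpr (P.mat code) w
  | [] => dec_one h ht
  | x :: w => by rw [mpr_cons]; exact dec_tr h _ _ _

theorem weq_spec {G : Type*} [Group G] {μ : G →* Matrix (Fin P.d) (Fin P.d) (ZMod P.q)}
    (h : P.ok = true) (ht : 0 < P.t) (hi : Function.Injective μ) (hM : Mem μ (P.mat code) m)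
    {u v : List ℕ} (e : P.weq code m u v = true) :
    evL (ev2 μ (P.mat code)) u = evL (ev2 μ (P.mat code)) v := by
  unfold weq at e
  simp only [Bool.and_eq_true, Nat.beq_eq] at e
  apply hi
  rw [map_evL_mpr hM.ev2 e.1.1, map_evL_mpr hM.ev2 e.1.2, ← dec_val h ht, ← dec_val h ht, e.2]

theorem mem_step {G : Type*} [Group G] {μ : G →* Matrix (Fin P.d) (Fin P.d) (ZMod P.q)}
    (h : P.ok = true) (ht : 0 < P.t) (hM : Mem μ (P.mat code) m) {u : List ℕ}
    (hu : inR m u = true) (e : P.weq code (m + 1) u [m] = true) : Mem μ (P.mat code) (m + 1) := by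
  unfold weq at e
  simp only [Bool.and_eq_true, Nat.beq_eq] at e
  refine hM.step ?_ hu
  rw [← dec_val h ht, e.2]
  rfl

end Par

end Cfsg.H6
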